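import Cfsg.Agent.H84.EP.Frame
import Cfsg.Prelude.Def_GeometricClasses

/-!
# S3499, `Sp₆(2) < Ω₇(q)` : the element `x` (helper84)

`exists_x` : `x` permutes the frame as a 3-cycle, `x ∈ Ω`, `x ∉ Sp₆(2)`, `x` normalises `D`, and none of the three involutions
`ga k` is in `Sp₆(2)ˣ`.
-/

set_option autoImplicit false

namespace Cfsg.Agent.H84.EP

open Cfsg Cfsg.Geo Matrix Cfsg.Agent.SporRec.TwoSp6.Sp
open scoped MatrixGroups commutatorElement

section form

variable {F : Type*} [Field F] {ι : Type} [Fintype ι] [DecidableEq ι] {Q : (ι → F) → F} {ρ : S →* GL ι F}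

theorem mem_iso {g : GL ι F} : g ∈ isometryGroup F Q ↔ ∀ v, Q (av g v) = Q v := by
  constructor
  · intro h v
    exact h v 0
  · intro h u v
    exact h u

theorem polar_av {g : GL ι F} (hg : g ∈ isometryGroup F Q) (u w : ι → F) :
    QuadraticMap.polar Q (av g u) (av g w) = QuadraticMap.polar Q u w := by
  unfold QuadraticMap.polar
  rw [← av_add, mem_iso.1 hg, mem_iso.1 hg, mem_iso.1 hg]

omit [Fintype ι] [DecidableEq ι] in
theorem polar_self (hQ : IsNondegenerateQuadraticForm Q) (v : ι → F) : QuadraticMap.polar Q v v = 2 * Q v := by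
  unfold QuadraticMap.polar
  have h : v + v = (2 : F) • v := by rw [two_smul]
  rw [h, hQ.smul]
  ring

/-- existence of the permutation matrices in a frame -/
theorem exists_R {v : Fin 7 → (ι → F)} (hli : LinearIndependent F v) (hspan : Submodule.span F (Set.range v) = ⊤)
    (σ : Equiv.Perm (Fin 7)) : ∃ g : GL ι F, ∀ i, av g (v i) = v (σ i) := by
  let b : Module.Basis (Fin 7) F (ι → F) := Module.Basis.mk hli (by rw [hspan])
  have hb : ∀ i, b i = v i := fun i => Module.Basis.mk_apply _ _ _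
  let L : (ι → F) ≃ₗ[F] (ι → F) := b.equiv b σ
  have hL : ∀ i, L (v i) = v (σ i) := by
    intro i
    rw [← hb, ← hb]
    exact Module.Basis.equiv_apply _ _ _ _
  have h1 : LinearMap.toMatrix' L.toLinearMap * LinearMap.toMatrix' L.symm.toLinearMap = 1 := by
    rw [← LinearMap.toMatrix'_comp, LinearEquiv.comp_coe, L.symm_trans_self]
    exact LinearMap.toMatrix'_id
  have h2 : LinearMap.toMatrix' L.symm.toLinearMap * LinearMap.toMatrix' L.toLinearMap = 1 := by
    rw [← LinearMap.toMatrix'_comp, LinearEquiv.comp_coe, L.self_trans_symm]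
    exact LinearMap.toMatrix'_id
  refine ⟨⟨LinearMap.toMatrix' L.toLinearMap, LinearMap.toMatrix' L.symm.toLinearMap, h1, h2⟩, fun i => ?_⟩
  show LinearMap.toMatrix' L.toLinearMap *ᵥ v i = _
  rw [LinearMap.toMatrix'_mulVec]
  exact hL i

theorem frame_ext {v : Fin 7 → (ι → F)} (hspan : Submodule.span F (Set.range v) = ⊤) {g h : GL ι F}
    (H : ∀ i, av g (v i) = av h (v i)) : g = h := by
  refine av_ext fun w => ?_
  have hw : w ∈ Submodule.span F (Set.range v) := by rw [hspan]; trivial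
  induction hw using Submodule.span_induction with
  | mem x hx =>
    obtain ⟨j, rfl⟩ := hx
    exact H j
  | zero => rw [av_zero, av_zero]
  | add x y _ _ hx hy => rw [av_add, av_add, hx, hy]
  | smul c x _ hx => rw [av_smul, av_smul, hx]

/-- permutation matrices in an orthogonal frame with equal norms are isometries -/
theorem iso_of_perm (h2 : (2 : F) ≠ 0) (hQ : IsNondegenerateQuadraticForm Q) {v : Fin 7 → (ι → F)}
    (hspan : Submodule.span F (Set.range v) = ⊤) (horth : ∀ i j, i ≠ j → QuadraticMap.polar Q (v i) (v j) = 0)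
    (hnorm : ∀ i j, Q (v i) = Q (v j)) {g : GL ι F} {σ : Fin 7 → Fin 7} (hσ : Function.Injective σ)
    (hg : ∀ i, av g (v i) = v (σ i)) : g ∈ isometryGroup F Q := by
  have hB := hQ.polar_bilinear
  have hz : ∀ u, QuadraticMap.polar Q u 0 = 0 := by
    intro u
    have := hB.smul_right 0 u 0
    rwa [zero_smul, zero_mul] at this
  have hz' : ∀ u, QuadraticMap.polar Q 0 u = 0 := by
    intro u
    have := hB.smul_left 0 0 u
    rwa [zero_smul, zero_mul] at this
  have h1 : ∀ i j, QuadraticMap.polar Q (v (σ i)) (v (σ j)) = QuadraticMap.polar Q (v i) (v j) := by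
    intro i j
    by_cases hij : i = j
    · rw [hij, polar_self hQ, polar_self hQ, hnorm (σ j) j]
    · rw [horth i j hij, horth _ _ (fun h => hij (hσ h))]
  have h3 : ∀ i w, QuadraticMap.polar Q (av g (v i)) (av g w) = QuadraticMap.polar Q (v i) w := by
    intro i w
    have hw : w ∈ Submodule.span F (Set.range v) := by rw [hspan]; trivial
    induction hw using Submodule.span_induction with
    | mem x hx =>
      obtain ⟨j, rfl⟩ := hx
      rw [hg, hg, h1]
    | zero => rw [av_zero, hz, hz]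
    | add x y _ _ hx hy => rw [av_add, hB.add_right, hB.add_right, hx, hy]
    | smul c x _ hx => rw [av_smul, hB.smul_right, hB.smul_right, hx]
  have h4 : ∀ u w, QuadraticMap.polar Q (av g u) (av g w) = QuadraticMap.polar Q u w := by
    intro u w
    have hu : u ∈ Submodule.span F (Set.range v) := by rw [hspan]; trivial
    induction hu using Submodule.span_induction with
    | mem x hx =>
      obtain ⟨j, rfl⟩ := hx
      exact h3 j w
    | zero => rw [av_zero, hz', hz']
    | add x y _ _ hx hy => rw [av_add, hB.add_left, hB.add_left, hx, hy]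
    | smul c x _ hx => rw [av_smul, hB.smul_left, hB.smul_left, hx]
  rw [mem_iso]
  intro w
  have h5 := h4 w w
  rw [polar_self hQ, polar_self hQ] at h5
  exact mul_left_cancel₀ h2 h5

/-- permutation matrices permute the `T i` -/
theorem perm_T {v : Fin 7 → (ι → F)} (hspan : Submodule.span F (Set.range v) = ⊤)
    (hw : ∀ i, Wt ρ (fun j => !decide (j = i)) (v i)) {g : GL ι F} {σ : Fin 7 → Fin 7} (hσ : Function.Injective σ)
    (hg : ∀ i, av g (v i) = v (σ i)) (i : Fin 7) : g * ρ (tr (pt i)) = ρ (tr (pt (σ i))) * g := by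
  apply frame_ext hspan
  intro j
  rw [av_mul, av_mul, hw j i, av_smul, hg, hw (σ j) (σ i)]
  congr 2
  simp only [hσ.eq_iff]

theorem lin_of_range {v : Fin 7 → (ι → F)} (hρ : Function.Injective ρ) (hspan : Submodule.span F (Set.range v) = ⊤)
    (hw : ∀ i, Wt ρ (fun j => !decide (j = i)) (v i)) {g : GL ι F} {σ : Fin 7 → Fin 7} (hσ : Function.Injective σ)
    (hg : ∀ i, av g (v i) = v (σ i)) (hr : g ∈ ρ.range) : Lin σ := by
  obtain ⟨s, rfl⟩ := hr
  have h1 : ∀ i, act s (pt i) = pt (σ i) := by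
    intro i
    have h2 := perm_T hspan hw hσ hg i
    rw [← map_mul, ← map_mul] at h2
    have h3 := hρ h2
    have h4 : tr (pt (σ i)) = tr (act s (pt i)) := by
      rw [← conj_tr, h3, mul_inv_cancel_right]
    exact (tr_inj (pt_ne _) h4).symm
  intro i j k hijk
  apply add_pt
  rw [← h1, ← h1, ← h1, ← act_add, pt_add hijk]

/-- monomial elements -/
theorem mono (h2 : (2 : F) ≠ 0) {v : Fin 7 → (ι → F)} (hspan : Submodule.span F (Set.range v) = ⊤)
    (hw : ∀ i, Wt ρ (fun j => !decide (j = i)) (v i)) (hQ : IsNondegenerateQuadraticForm Q)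
    (hiso : ∀ s, ρ s ∈ isometryGroup F Q) (hnorm : ∀ i j, Q (v i) = Q (v j)) (hn0 : ∀ i, Q (v i) ≠ 0) {s : S}
    {σ : Fin 7 → Fin 7} (hs : ∀ i, act s (pt i) = pt (σ i)) :
    ∃ δ : Fin 7 → Bool, ∀ i, av (ρ s) (v i) = sg F (δ i) • v (σ i) := by
  have key : ∀ (i : Fin 7) (u : ι → F), ∃ c : F, u + av (ρ (tr (pt i))) u = c • v i := by
    intro i u
    have hu : u ∈ Submodule.span F (Set.range v) := by rw [hspan]; trivial
    induction hu using Submodule.span_induction with
    | mem x hx =>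
      obtain ⟨j, rfl⟩ := hx
      rw [hw j i]
      by_cases hij : i = j
      · refine ⟨2, ?_⟩
        rw [hij]
        simp [sg, two_smul]
      · refine ⟨0, ?_⟩
        simp [sg, hij]
    | zero => exact ⟨0, by rw [av_zero]; simp⟩
    | add x y _ _ hx hy =>
      obtain ⟨c, hc⟩ := hx
      obtain ⟨d, hd⟩ := hy
      refine ⟨c + d, ?_⟩
      rw [av_add, add_smul, ← hc, ← hd]
      abel
    | smul c x _ hx =>
      obtain ⟨d, hd⟩ := hx
      refine ⟨c * d, ?_⟩
      rw [av_smul, ← smul_add, hd, smul_smul]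
  have h1 : ∀ i, ∃ b : Bool, av (ρ s) (v i) = sg F b • v (σ i) := by
    intro i
    have h3 : av (ρ (tr (pt (σ i)))) (av (ρ s) (v i)) = av (ρ s) (v i) := by
      rw [← av_mul, ← map_mul, tr_mul_of (hs i), map_mul, av_mul, hw i i]
      simp [sg]
    obtain ⟨c, hc⟩ := key (σ i) (av (ρ s) (v i))
    rw [h3] at hc
    have h4 : av (ρ s) (v i) = (c / 2) • v (σ i) := by
      have h5 : (2 : F) • av (ρ s) (v i) = c • v (σ i) := by rw [two_smul, hc]
      rw [div_eq_inv_mul, ← smul_smul, ← h5, smul_smul, inv_mul_cancel₀ h2, one_smul]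
    have h6 : (c / 2) ^ 2 = 1 := by
      have h7 := mem_iso.1 (hiso s) (v i)
      rw [h4, hQ.smul, hnorm (σ i) i] at h7
      have h8 : ((c / 2) ^ 2 - 1) * Q (v i) = 0 := by rw [sub_mul, h7, one_mul, sub_self]
      exact sub_eq_zero.1 ((mul_eq_zero.1 h8).resolve_right (hn0 i))
    rcases mul_self_eq_one_iff.1 ((sq _).symm.trans h6) with h9 | h9
    · exact ⟨false, by rw [h4, h9]; simp [sg]⟩
    · exact ⟨true, by rw [h4, h9]; simp [sg]⟩
  choose δ hδ using h1
  exact ⟨δ, hδ⟩

theorem prod_finRange {M : Type*} [Monoid M] (f : Fin 7 → M) :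
    ((List.finRange 7).map f).prod = f 0 * (f 1 * (f 2 * (f 3 * (f 4 * (f 5 * f 6))))) := by
  show (List.map f [0, 1, 2, 3, 4, 5, 6]).prod = _
  simp

/-- the elements of `D` -/
theorem dd_av {v : Fin 7 → (ι → F)} (hw : ∀ i, Wt ρ (fun j => !decide (j = i)) (v i)) {μ : Fin 7 → Bool}
    (hμ : par μ = false) (j : Fin 7) : av (ρ (dd μ)) (v j) = sg F (μ j) • v j := by
  have h1 : ∀ l : List (Fin 7), av (ρ (l.map fun i => if μ i then tr (pt i) else 1).prod) (v j) =
      (l.map fun i => sg F (μ i && !decide (i = j))).prod • v j := by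
    intro l
    induction l with
    | nil => simp [av_one]
    | cons a l ih =>
      rw [List.map_cons, List.prod_cons, List.map_cons, List.prod_cons, map_mul, av_mul, ih, av_smul]
      cases h : μ a
      · simp [sg, av_one]
      · simp only [if_true, Bool.true_and]
        rw [hw j a, smul_smul, mul_comm]
  unfold dd
  rw [h1, prod_finRange]
  congr 1
  rw [← comb5 μ hμ j]
  unfold par
  simp only [sg_xor]

theorem dd_mem {H : Subgroup S} (h : ∀ i, tr (pt i) ∈ H) (μ : Fin 7 → Bool) : dd μ ∈ H := by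
  unfold dd
  apply Subgroup.list_prod_mem
  intro x hx
  obtain ⟨i, -, rfl⟩ := List.mem_map.1 hx
  split_ifs
  · exact h i
  · exact H.one_mem

/-- **the element `x`** -/
theorem exists_x (h2 : (2 : F) ≠ 0) (hρ : Function.Injective ρ) (hι : Fintype.card ι = 7)
    (hQ : IsNondegenerateQuadraticForm Q) (hiso : ∀ s, ρ s ∈ isometryGroup F Q) :
    ∃ x ∈ omegaGL Q, x ∉ ρ.range ∧ (∀ i, x⁻¹ * ρ (tr (pt i)) * x ∈ ρ.range) ∧ ∀ k, x⁻¹ * ρ (ga k) * x ∉ ρ.range := by
  obtain ⟨v, hli, hw, w, h, hvw⟩ := exists_frame h2 hρ hι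
  have hspan := span_of_li hι hli
  have hB := hQ.polar_bilinear
  have hnorm : ∀ i j, Q (v i) = Q (v j) := by
    intro i j
    rw [hvw, hvw, mem_iso.1 (hiso _), mem_iso.1 (hiso _)]
  have horth : ∀ i j, i ≠ j → QuadraticMap.polar Q (v i) (v j) = 0 := by
    intro i j hij
    have h3 := polar_av (hiso (tr (pt i))) (v i) (v j)
    rw [hw i i, hw j i, hB.smul_left, hB.smul_right] at h3
    have h4 : sg F (!decide (i = i)) = 1 := by simp [sg]
    have h5 : sg F (!decide (i = j)) = -1 := by simp [sg, hij]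
    rw [h4, h5] at h3
    have h6 : (2 : F) * QuadraticMap.polar Q (v i) (v j) = 0 := by linear_combination -h3
    exact (mul_eq_zero.1 h6).resolve_left h2
  have hn0 : ∀ i, Q (v i) ≠ 0 := by
    intro i h0
    obtain ⟨-, u, hu⟩ := hQ.nondegenerate (v i) (hli.ne_zero i)
    apply hu
    have hu' : u ∈ Submodule.span F (Set.range v) := by rw [hspan]; trivial
    induction hu' using Submodule.span_induction with
    | mem x hx =>
      obtain ⟨j, rfl⟩ := hx
      by_cases hij : i = j
      · rw [← hij, polar_self hQ, h0, mul_zero]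
      · exact horth i j hij
    | zero =>
      have := hB.smul_right 0 (v i) 0
      rwa [zero_smul, zero_mul] at this
    | add x y _ _ hx hy =>
      have h1 : QuadraticMap.polar Q (v i) x = 0 := by
        by_contra hcon
        exact hcon (hx hcon)
      have h3 : QuadraticMap.polar Q (v i) y = 0 := by
        by_contra hcon
        exact hcon (hy hcon)
      rw [hB.add_right, h1, h3, add_zero]
    | smul c x _ hx =>
      have h1 : QuadraticMap.polar Q (v i) x = 0 := by
        by_contra hcon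
        exact hcon (hx hcon)
      rw [hB.smul_right, h1, mul_zero]
  -- the 3-cycle
  obtain ⟨R, hR⟩ := exists_R hli hspan (Equiv.swap 2 4)
  obtain ⟨R', hR'⟩ := exists_R hli hspan (Equiv.swap 2 5)
  have hRi : R ∈ isometryGroup F Q := iso_of_perm h2 hQ hspan horth hnorm (Equiv.injective _) hR
  have hRi' : R' ∈ isometryGroup F Q := iso_of_perm h2 hQ hspan horth hnorm (Equiv.injective _) hR'
  have hinv : ∀ {g : GL ι F} {σ τ : Fin 7 → Fin 7}, (∀ i, av g (v i) = v (σ i)) → (∀ i, σ (τ i) = i) →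
      ∀ i, av g⁻¹ (v i) = v (τ i) := by
    intro g σ τ hg hst i
    apply av_inj g
    rw [← av_mul, mul_inv_cancel, av_one, hg, hst]
  have hRn : ∀ i, av R⁻¹ (v i) = v (Equiv.swap 2 4 i) := hinv hR (by simp)
  have hRn' : ∀ i, av R'⁻¹ (v i) = v (Equiv.swap 2 5 i) := hinv hR' (by simp)
  set x : GL ι F := ⁅R, R'⁆ with hx
  have hxv : ∀ i, av x (v i) = v (cyc i) := by
    intro i
    rw [hx, commutatorElement_def, av_mul, av_mul, av_mul, hRn', hRn, hR', hR]
    congr 1
    revert i
    decide +kernel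
  have hcycinj : Function.Injective cyc := fun a b hab => by
    rw [← cyc_inv.2 a, hab, cyc_inv.2]
  have hcycinj' : Function.Injective cyc' := fun a b hab => by
    rw [← cyc_inv.1 a, hab, cyc_inv.1]
  have hxv' : ∀ i, av x⁻¹ (v i) = v (cyc' i) := hinv hxv cyc_inv.1
  have hxO : x ∈ omegaGL Q := by
    refine ⟨⁅(⟨R, hRi⟩ : isometryGroup F Q), ⟨R', hRi'⟩⁆, ?_, rfl⟩
    exact Subgroup.commutator_mem_commutator (Subgroup.mem_top _) (Subgroup.mem_top _)
  have hT : ∀ i, x⁻¹ * ρ (tr (pt i)) * x ∈ ρ.range := by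
    intro i
    have h3 := perm_T hspan hw hcycinj' hxv' i
    rw [h3, inv_mul_cancel_right]
    exact ⟨_, rfl⟩
  refine ⟨x, hxO, fun hr => not_lin_cyc (lin_of_range hρ hspan hw hcycinj hxv hr), hT, fun k hk => ?_⟩
  -- the three involutions
  obtain ⟨δ, hδ⟩ := mono h2 hspan hw hQ hiso hnorm hn0 (act_sa k)
  have hpar := comb4 k δ
  set μ : Fin 7 → Bool := fun i => xor (δ i) (δ (sp k i)) with hμ
  have h1 : ∀ i, av (ρ (ga k)) (v i) = sg F (μ i) • v (gp k i) := by
    intro i
    rw [← sa_sq, map_mul, av_mul, hδ, av_smul, hδ, smul_smul, sp_sp, hμ, sg_xor]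
  have h3 : ∀ i, av (ρ (dd μ)) (v i) = sg F (μ i) • v i := dd_av hw hpar
  have h4 : x⁻¹ * ρ (dd μ) * x ∈ ρ.range := by
    let K : Subgroup S := (ρ.range.comap (MulAut.conj x⁻¹).toMonoidHom).comap ρ
    have h5 : ∀ i, tr (pt i) ∈ K := by
      intro i
      show x⁻¹ * ρ (tr (pt i)) * x⁻¹⁻¹ ∈ ρ.range
      rw [inv_inv]
      exact hT i
    have h6 : x⁻¹ * ρ (dd μ) * x⁻¹⁻¹ ∈ ρ.range := dd_mem h5 μ
    rwa [inv_inv] at h6
  have h5 : x⁻¹ * ρ (ga k * dd μ) * x ∈ ρ.range := by
    have h6 : x⁻¹ * ρ (ga k * dd μ) * x = (x⁻¹ * ρ (ga k) * x) * (x⁻¹ * ρ (dd μ) * x) := by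
      rw [map_mul]
      group
    rw [h6]
    exact mul_mem hk h4
  have hgpinj : Function.Injective (gp k) := fun a b hab => by
    rw [← gp_inv k a, hab, gp_inv]
  refine not_lin_conj k (lin_of_range hρ hspan hw (hcycinj'.comp (hgpinj.comp hcycinj)) (fun i => ?_) h5)
  rw [av_mul, av_mul, hxv, map_mul, av_mul, h3, av_smul, h1, smul_smul, sg_mul_self, one_smul, hxv']

end form

end Cfsg.Agent.H84.EP
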