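import Cfsg.Agent.H84.EP.SpC

/-!
# S3499, `Sp₆(2)` : the frame (helper84)

`exists_frame` : a faithful representation of `Sp₆(2)` of degree 7 in characteristic `≠ 2` has a frame `v 0, …, v 6`
with `tr (pt j) v i = ± v i`, the sign is `+` iff `i = j`.
-/

set_option autoImplicit false

namespace Cfsg.Agent.H84.EP

open Cfsg Matrix Cfsg.Agent.SporRec.TwoSp6.Sp
open scoped MatrixGroups

theorem tr_inj {u w : V} (hu : u ≠ 0) (h : tr u = tr w) : u = w := by
  obtain ⟨x, hx⟩ := exists_om_one hu
  rw [om_symm] at hx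
  have h1 := congrArg (fun g => act g x) h
  simp only [act_tr] at h1
  rw [hx, one_smul] at h1
  have h2 : u = om x w • w := add_left_cancel h1
  rcases om_cases x w with h3 | h3
  · rw [h3, zero_smul] at h2
    exact absurd h2 hu
  · rwa [h3, one_smul] at h2

theorem tr_line : tr (pt 0) * (tr (pt 1) * tr (pt 2)) ≠ 1 := by
  intro h
  have h1 : ∀ x, act (tr (pt 0)) (act (tr (pt 1)) (act (tr (pt 2)) x)) = x := by
    intro x
    rw [← act_mul, ← act_mul, mul_assoc, h, act_one]
  simp only [act_tr] at h1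
  revert h1
  decide +kernel

theorem tr_ne (i : Fin 7) : tr (pt i) ≠ 1 := by
  intro h
  obtain ⟨x, hx⟩ := exists_om_one (pt_ne i)
  rw [om_symm] at hx
  have h1 := congrArg (fun g => act g x) h
  simp only [act_tr, act_one] at h1
  rw [hx, one_smul] at h1
  exact pt_ne i (add_eq_left.1 h1)

theorem tr_mul_of {g : S} {i j : Fin 7} (h : act g (pt i) = pt j) : tr (pt j) * g = g * tr (pt i) := by
  rw [← h, ← conj_tr, inv_mul_cancel_right]

/-- signs -/
def sg (F : Type*) [Field F] (b : Bool) : F := if b then -1 else 1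

section frame

variable {F : Type*} [Field F] {ι : Type} [Fintype ι] [DecidableEq ι]

theorem sg_xor (a b : Bool) : sg F (xor a b) = sg F a * sg F b := by
  cases a <;> cases b <;> simp [sg]

theorem sg_mul_self (a : Bool) : sg F a * sg F a = 1 := by
  cases a <;> simp [sg]

theorem sg_ne (a : Bool) : sg F a ≠ 0 := by
  cases a <;> simp [sg]

theorem neg_one_ne (h2 : (2 : F) ≠ 0) : (-1 : F) ≠ 1 := by
  intro h
  apply h2
  linear_combination -h

theorem sg_inj (h2 : (2 : F) ≠ 0) {a b : Bool} (h : sg F a = sg F b) : a = b := by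
  cases a <;> cases b
  · rfl
  · exact absurd h.symm (neg_one_ne h2)
  · exact absurd h (neg_one_ne h2)
  · rfl

theorem sg_mul_ne {a b : Bool} (h : a ≠ b) : sg F a * sg F b = -1 := by
  cases a <;> cases b <;> simp [sg] at h ⊢

/-- the action on vectors -/
def av (g : GL ι F) (v : ι → F) : ι → F := (g : Matrix ι ι F) *ᵥ v

theorem av_mul (g h : GL ι F) (v : ι → F) : av (g * h) v = av g (av h v) := by
  unfold av
  rw [Units.val_mul, Matrix.mulVec_mulVec]

theorem av_one (v : ι → F) : av (1 : GL ι F) v = v := by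
  unfold av
  rw [Units.val_one, Matrix.one_mulVec]

theorem av_add (g : GL ι F) (u v : ι → F) : av g (u + v) = av g u + av g v := Matrix.mulVec_add _ _ _

theorem av_sub (g : GL ι F) (u v : ι → F) : av g (u - v) = av g u - av g v := Matrix.mulVec_sub _ _ _

theorem av_smul (g : GL ι F) (c : F) (v : ι → F) : av g (c • v) = c • av g v := Matrix.mulVec_smul _ _ _

theorem av_zero (g : GL ι F) : av g 0 = 0 := Matrix.mulVec_zero _

theorem av_inv_av (g : GL ι F) (v : ι → F) : av g⁻¹ (av g v) = v := by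
  rw [← av_mul, inv_mul_cancel, av_one]

theorem av_inj (g : GL ι F) {u v : ι → F} (h : av g u = av g v) : u = v := by
  rw [← av_inv_av g u, h, av_inv_av]

theorem av_ne (g : GL ι F) {v : ι → F} (h : v ≠ 0) : av g v ≠ 0 := by
  intro h0
  apply h
  apply av_inj g
  rw [h0, av_zero]

theorem av_ext {g h : GL ι F} (H : ∀ v, av g v = av h v) : g = h := by
  apply Units.ext
  exact Matrix.ext_of_mulVec_single fun i => H _

variable (ρ : S →* GL ι F)

/-- `v` has weight `ε` -/
def Wt (ε : Fin 7 → Bool) (v : ι → F) : Prop := ∀ i, av (ρ (tr (pt i))) v = sg F (ε i) • v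

variable {ρ}

theorem wt_ya {ε : Fin 7 → Bool} {v : ι → F} (h : Wt ρ ε v) : Wt ρ (ε ∘ yp) (av (ρ ya⁻¹) v) := by
  intro i
  have h1 : act ya⁻¹ (pt (yp i)) = pt i := by rw [← act_ya, ← act_mul, inv_mul_cancel, act_one]
  rw [← av_mul, ← map_mul, tr_mul_of h1, map_mul, av_mul, h, av_smul]
  rfl

theorem wt_iter {ε : Fin 7 → Bool} {v : ι → F} (h : Wt ρ ε v) (n : ℕ) : Wt ρ (ε ∘ yp^[n]) (av (ρ (ya⁻¹ ^ n)) v) := by
  induction n with
  | zero =>
    rw [pow_zero, map_one, av_one]
    exact h
  | succ n ih =>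
    have h1 := wt_ya ih
    rw [← av_mul, ← map_mul, ← pow_succ'] at h1
    exact h1

theorem wt_ga {ε : Fin 7 → Bool} {v : ι → F} (h : Wt ρ ε v) (k : Fin 3) : Wt ρ (ε ∘ gp k) (av (ρ (ga k)) v) := by
  intro i
  have h1 : act (ga k) (pt (gp k i)) = pt i := by rw [act_ga, gp_inv]
  rw [← av_mul, ← map_mul, tr_mul_of h1, map_mul, av_mul, h, av_smul]
  rfl

theorem tt_sq (i : Fin 7) (v : ι → F) : av (ρ (tr (pt i))) (av (ρ (tr (pt i))) v) = v := by
  rw [← av_mul, ← map_mul, tr_sq, map_one, av_one]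

theorem tt_comm (i j : Fin 7) (v : ι → F) :
    av (ρ (tr (pt i))) (av (ρ (tr (pt j))) v) = av (ρ (tr (pt j))) (av (ρ (tr (pt i))) v) := by
  rw [← av_mul, ← av_mul, ← map_mul, ← map_mul, tr_comm (om_pt i j)]

/-- a weight vector -/
theorem exists_wt (hρ : Function.Injective ρ) : ∃ v : ι → F, v ≠ 0 ∧ ∃ ε : Fin 7 → Bool, ε 0 = true ∧ Wt ρ ε v := by
  have key : ∀ n : ℕ, ∃ w : ι → F, w ≠ 0 ∧ av (ρ (tr (pt 0))) w = -w ∧
      ∀ i : Fin 7, i.val < n → ∃ b, av (ρ (tr (pt i))) w = sg F b • w := by
    intro n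
    induction n with
    | zero =>
      have h1 : ρ (tr (pt 0)) ≠ 1 := by
        intro h
        exact tr_ne 0 (hρ (by rw [h, map_one]))
      obtain ⟨u, hu⟩ : ∃ u, av (ρ (tr (pt 0))) u ≠ u := by
        by_contra hcon
        push Not at hcon
        exact h1 (av_ext fun v => by rw [hcon, av_one])
      refine ⟨u - av (ρ (tr (pt 0))) u, sub_ne_zero.2 hu.symm, ?_, fun i hi => absurd hi (Nat.not_lt_zero _)⟩
      rw [av_sub, tt_sq, neg_sub]
    | succ n ih =>
      obtain ⟨w, hw, h0, hi⟩ := ih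
      by_cases hn : n < 7
      · by_cases h1 : av (ρ (tr (pt ⟨n, hn⟩))) w = -w
        · refine ⟨w, hw, h0, fun i hin => ?_⟩
          rcases Nat.lt_succ_iff_lt_or_eq.1 hin with h2 | h2
          · exact hi i h2
          · have h3 : i = ⟨n, hn⟩ := Fin.ext h2
            rw [h3]
            exact ⟨true, by rw [h1]; simp [sg]⟩
        · refine ⟨w + av (ρ (tr (pt ⟨n, hn⟩))) w, ?_, ?_, fun i hin => ?_⟩
          · intro h2
            exact h1 (eq_neg_of_add_eq_zero_right h2)
          · rw [av_add, tt_comm, h0, neg_add]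
            congr 1
            rw [← neg_one_smul F w, av_smul, neg_one_smul]
          · rcases Nat.lt_succ_iff_lt_or_eq.1 hin with h2 | h2
            · obtain ⟨b, hb⟩ := hi i h2
              refine ⟨b, ?_⟩
              rw [av_add, tt_comm, hb, av_smul, smul_add]
            · have h3 : i = ⟨n, hn⟩ := Fin.ext h2
              rw [h3]
              refine ⟨false, ?_⟩
              rw [av_add, tt_sq, add_comm]
              simp [sg]
      · exact ⟨w, hw, h0, fun i _ => hi i (by omega)⟩
  obtain ⟨w, hw, h0, hi⟩ := key 7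
  choose ε hε using fun i : Fin 7 => hi i i.2
  refine ⟨w, hw, fun i => if i = 0 then true else ε i, by simp, fun i => ?_⟩
  by_cases h : i = 0
  · rw [h, h0]
    simp [sg]
  · simp only [if_neg h]
    exact hε i

/-- the parity of a weight -/
theorem wt_par (h2 : (2 : F) ≠ 0) {ε : Fin 7 → Bool} {v : ι → F} (hv : v ≠ 0) (h : Wt ρ ε v) : par ε = false := by
  have h1 := congrArg (fun g => av (ρ g) v) fano_prod
  have h3 : av (ρ ((fano.map fun c => tr (enc c)).prod)) v = sg F (par ε) • v := by
    have e : (fano.map fun c => tr (enc c)).prod =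
        tr (pt 6) * (tr (pt 2) * (tr (pt 4) * (tr (pt 5) * (tr (pt 0) * (tr (pt 1) * tr (pt 3)))))) := by
      simp [fano, pt]
    rw [e]
    simp only [map_mul, av_mul, h _, av_smul, smul_smul]
    congr 1
    unfold par
    simp only [sg_xor]
    ring
  simp only [h3, map_one, av_one] at h1
  have h4 : sg F (par ε) = 1 := by
    have : (sg F (par ε) - 1) • v = 0 := by rw [sub_smul, h1, one_smul, sub_self]
    rcases smul_eq_zero.1 this with h5 | h5
    · exact sub_eq_zero.1 h5
    · exact absurd h5 hv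
  exact sg_inj h2 (b := false) (by rw [h4]; simp [sg])

variable (ρ) in
/-- the projections -/
def prj (ε : Fin 7 → Bool) : Matrix ι ι F :=
  ((List.finRange 7).map fun i => 1 + sg F (ε i) • ((ρ (tr (pt i)) : GL ι F) : Matrix ι ι F)).prod

theorem prj_wt (ε : Fin 7 → Bool) {μ : Fin 7 → Bool} {u : ι → F} (h : Wt ρ μ u) :
    prj ρ ε *ᵥ u = ((List.finRange 7).map fun i => 1 + sg F (ε i) * sg F (μ i)).prod • u := by
  unfold prj
  generalize List.finRange 7 = l
  induction l with
  | nil => simp
  | cons a l ih =>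
    rw [List.map_cons, List.prod_cons, List.map_cons, List.prod_cons, ← Matrix.mulVec_mulVec, ih, Matrix.mulVec_smul,
      Matrix.add_mulVec, Matrix.one_mulVec, Matrix.smul_mulVec]
    have h1 : ((ρ (tr (pt a)) : GL ι F) : Matrix ι ι F) *ᵥ u = sg F (μ a) • u := h a
    rw [h1]
    module

theorem prj_self {ε : Fin 7 → Bool} {u : ι → F} (h : Wt ρ ε u) : prj ρ ε *ᵥ u = (2 ^ 7 : F) • u := by
  rw [prj_wt ε h]
  congr 1
  have : (fun i : Fin 7 => 1 + sg F (ε i) * sg F (ε i)) = fun _ => (2 : F) := by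
    funext i
    rw [sg_mul_self]
    norm_num
  rw [this]
  simp
  ring

theorem prj_ne {ε μ : Fin 7 → Bool} {u : ι → F} (h : Wt ρ μ u) (hne : ε ≠ μ) : prj ρ ε *ᵥ u = 0 := by
  rw [prj_wt ε h]
  obtain ⟨i, hi⟩ := Function.ne_iff.1 hne
  have h1 : ((List.finRange 7).map fun i => 1 + sg F (ε i) * sg F (μ i)).prod = 0 := by
    rw [List.prod_eq_zero_iff, List.mem_map]
    exact ⟨i, List.mem_finRange i, by rw [sg_mul_ne hi, add_neg_cancel]⟩
  rw [h1, zero_smul]

/-- vectors of distinct weights are independent -/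
theorem li_of_wt (h2 : (2 : F) ≠ 0) {u : Fin 7 → (ι → F)} {μ : Fin 7 → Fin 7 → Bool} (hu : ∀ j, u j ≠ 0)
    (hw : ∀ j, Wt ρ (μ j) (u j)) (hμ : Function.Injective μ) : LinearIndependent F u := by
  rw [Fintype.linearIndependent_iff]
  intro c hc j
  have h1 := congrArg (fun w => prj ρ (μ j) *ᵥ w) hc
  simp only [Matrix.mulVec_zero] at h1
  rw [Matrix.mulVec_sum, Finset.sum_eq_single j] at h1
  · rw [Matrix.mulVec_smul, prj_self (hw j), smul_smul] at h1
    rcases smul_eq_zero.1 h1 with h3 | h3
    · rcases mul_eq_zero.1 h3 with h4 | h4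
      · exact h4
      · exact absurd h4 (pow_ne_zero _ h2)
    · exact absurd h3 (hu j)
  · intro k _ hk
    rw [Matrix.mulVec_smul, prj_ne (hw k) (fun h => hk (hμ h).symm), smul_zero]
  · intro h
    exact absurd (Finset.mem_univ j) h

omit [DecidableEq ι] in
/-- the span of 7 independent vectors -/
theorem span_of_li (hι : Fintype.card ι = 7) {u : Fin 7 → (ι → F)} (hu : LinearIndependent F u) :
    Submodule.span F (Set.range u) = ⊤ := by
  apply hu.span_eq_top_of_card_eq_finrank'
  rw [Fintype.card_fin, Module.finrank_fintype_fun_eq_card, hι]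

/-- **the frame** -/
theorem exists_frame (h2 : (2 : F) ≠ 0) (hρ : Function.Injective ρ) (hι : Fintype.card ι = 7) :
    ∃ v : Fin 7 → (ι → F), LinearIndependent F v ∧ (∀ i, Wt ρ (fun j => !decide (j = i)) (v i)) ∧
      ∃ (w : ι → F) (h : Fin 7 → S), ∀ i, v i = av (ρ (h i)) w := by
  obtain ⟨v0, hv0, ε, hε0, hε⟩ := exists_wt hρ
  have hpar := wt_par h2 hv0 hε
  let W : Fin 7 → (ι → F) := fun j => av (ρ (ya⁻¹ ^ j.val)) v0
  have hW0 : ∀ j, W j ≠ 0 := fun j => av_ne _ hv0
  have hWw : ∀ j : Fin 7, Wt ρ (ε ∘ yp^[j.val]) (W j) := fun j => wt_iter hε j.val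
  have hWli : LinearIndependent F W := li_of_wt h2 hW0 hWw (by
    intro j j' hj
    exact comb1 ε hε0 hpar j j' fun i => congrFun hj i)
  have hspan := span_of_li hι hWli
  -- every weight occurs
  have hall : ∀ (μ : Fin 7 → Bool) (u : ι → F), u ≠ 0 → Wt ρ μ u → ∃ j : Fin 7, μ = ε ∘ yp^[j.val] := by
    intro μ u hu hμ
    by_contra hcon
    push Not at hcon
    have h1 : ∀ w : ι → F, prj ρ μ *ᵥ w = 0 := by
      intro w
      have hw : w ∈ Submodule.span F (Set.range W) := by rw [hspan]; trivial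
      induction hw using Submodule.span_induction with
      | mem x hx =>
        obtain ⟨j, rfl⟩ := hx
        exact prj_ne (hWw j) (hcon j)
      | zero => exact Matrix.mulVec_zero _
      | add x y _ _ hx hy => rw [Matrix.mulVec_add, hx, hy, add_zero]
      | smul c x _ hx => rw [Matrix.mulVec_smul, hx, smul_zero]
    have h3 := h1 u
    rw [prj_self hμ] at h3
    rcases smul_eq_zero.1 h3 with h4 | h4
    · exact absurd h4 (pow_ne_zero _ h2)
    · exact hu h4
  rcases comb2 ε hε0 hpar (by
    intro k j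
    obtain ⟨j', hj'⟩ := hall _ _ (av_ne _ (hW0 j)) (wt_ga (hWw j) k)
    exact ⟨j', fun i => congrFun hj' i⟩) with ⟨i0, hi0⟩ | hline
  · choose n hn using comb3 i0
    have hvw : ∀ i, Wt ρ (fun j => !decide (j = i)) (W (n i)) := by
      intro i
      have h1 : (fun j => !decide (j = i)) = ε ∘ yp^[(n i).val] := by
        funext j
        show _ = ε (yp^[(n i).val] j)
        rw [hi0]
        congr 1
        rw [decide_eq_decide]
        constructor
        · rintro rfl
          exact hn j
        · intro h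
          exact yp_iter_inj _ (h.trans (hn i).symm)
      rw [h1]
      exact hWw (n i)
    refine ⟨fun i => W (n i), li_of_wt h2 (fun i => hW0 _) hvw ?_, hvw, v0, fun i => ya⁻¹ ^ (n i).val, fun i => rfl⟩
    intro i j hij
    have h1 := congrFun hij i
    simp at h1
    exact h1
  · exfalso
    apply tr_line
    apply hρ
    rw [map_one]
    have key : ∀ w : ι → F, av (ρ (tr (pt 0) * (tr (pt 1) * tr (pt 2)))) w = w := by
      intro w
      have hw : w ∈ Submodule.span F (Set.range W) := by rw [hspan]; trivial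
      induction hw using Submodule.span_induction with
      | mem x hx =>
        obtain ⟨j, rfl⟩ := hx
        simp only [map_mul, av_mul, hWw j _, av_smul, smul_smul]
        have h3 := hline j
        have h4 : sg F ((ε ∘ yp^[j.val]) 2) * sg F ((ε ∘ yp^[j.val]) 1) * sg F ((ε ∘ yp^[j.val]) 0) = 1 := by
          have h5 := congrArg (sg F) h3
          rw [sg_xor, sg_xor] at h5
          have h6 : sg F false = 1 := by simp [sg]
          rw [h6] at h5
          rw [← h5]
          show sg F (ε (yp^[j.val] 2)) * sg F (ε (yp^[j.val] 1)) * sg F (ε (yp^[j.val] 0)) = _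
          ring
        rw [h4, one_smul]
      | zero => exact av_zero _
      | add x y _ _ hx hy => rw [av_add, hx, hy]
      | smul c x _ hx => rw [av_smul, hx]
    exact av_ext fun w => by rw [key, av_one]

end frame

end Cfsg.Agent.H84.EP
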