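import Cfsg.Agent.H84.EP.RowSp6

/-!
# S3499: `A ≅ Sp₆(2)` and an element permuting the transvections of `D` as a 3-cycle (helper84)
-/

set_option autoImplicit false

namespace Cfsg.Agent.H84.EP

open Cfsg Cfsg.Geo Matrix Subgroup Cfsg.Agent.SporRec.TwoSp6.Sp Cfsg.Agent.H284 Cfsg.Agent.H419.EP
open Cfsg.Agent.H876 (spToGL)

theorem lin_of_conj {s : S} {τ : Fin 7 → Fin 7} (h : ∀ i, s * tr (pt i) * s⁻¹ = tr (pt (τ i))) : Lin τ := by
  have h1 : ∀ i, act s (pt i) = pt (τ i) := by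
    intro i
    have h2 := h i
    rw [conj_tr] at h2
    exact (tr_inj (pt_ne _) h2.symm).symm
  intro i j k hijk
  apply add_pt
  rw [← h1, ← h1, ← h1, ← act_add, pt_add hijk]

theorem ga_conj (k : Fin 3) (i : Fin 7) : ga k * tr (pt i) * (ga k)⁻¹ = tr (pt (gp k i)) := by
  rw [conj_tr, act_ga]

/-- **the kill**: no element of `Q` permutes the seven transvections of `D` as the 3-cycle `cyc` -/
theorem kill (h56 : Res56) {Q : Type*} [Group Q] {A : Subgroup Q} {Γ : Subgroup (MulAut Q)} (h : EPT A Γ)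
    (hc : ∀ a ∈ A, (∀ b ∈ A, a * b = b * a) → a = 1) (e : S ≃* A) {x : Q}
    (hx : ∀ i, x * (e (tr (pt i)) : Q) * x⁻¹ = e (tr (pt (cyc i)))) : False := by
  have hx' : ∀ i, x⁻¹ * (e (tr (pt i)) : Q) * x = e (tr (pt (cyc' i))) := by
    intro i
    have h1 := hx (cyc' i)
    rw [cyc_inv.1] at h1
    rw [← h1]
    group
  have hxA : x ∉ A := by
    intro hxA
    apply not_lin_cyc
    refine lin_of_conj (s := e.symm ⟨x, hxA⟩) fun i => ?_
    apply e.injective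
    apply Subtype.ext
    rw [map_mul, map_mul, map_inv, e.apply_symm_apply]
    exact hx i
  obtain ⟨k, hk⟩ := exists_ga h56 (isMax h hc e hxA) (fun i => mem_pre.2 (by
    rw [hx']
    exact (e _).2))
  have h1 := mem_pre.1 hk
  refine not_lin_conj k (lin_of_conj (s := e.symm ⟨_, h1⟩) fun i => ?_)
  apply e.injective
  apply Subtype.ext
  rw [map_mul, map_mul, map_inv, e.apply_symm_apply]
  show (x⁻¹ * (e (ga k) : Q) * x) * (e (tr (pt i)) : Q) * (x⁻¹ * (e (ga k) : Q) * x)⁻¹ = _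
  have h2 : (e (ga k) : Q) * (e (tr (pt (cyc i))) : Q) * (e (ga k) : Q)⁻¹ = e (tr (pt (gp k (cyc i)))) := by
    rw [← ga_conj, map_mul, map_mul, map_inv]
    rfl
  calc (x⁻¹ * (e (ga k) : Q) * x) * (e (tr (pt i)) : Q) * (x⁻¹ * (e (ga k) : Q) * x)⁻¹
      = x⁻¹ * ((e (ga k) : Q) * (x * (e (tr (pt i)) : Q) * x⁻¹) * (e (ga k) : Q)⁻¹) * x := by group
    _ = x⁻¹ * (e (tr (pt (gp k (cyc i)))) : Q) * x := by rw [hx, h2]
    _ = _ := hx' _

theorem cent_of_hasSoc {Q : Type*} [Group Q] {A : Subgroup Q} {L : Type*} [Group L] (hA : HasSoc A L) :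
    ∀ a ∈ A, (∀ b ∈ A, a * b = b * a) → a = 1 := by
  obtain ⟨N, hNA, hn, hc, -⟩ := hA
  exact fun a ha hab => hc a ha fun n hn' => hab n (hNA hn')

end Cfsg.Agent.H84.EP
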