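import Cfsg.Agent.H84.EP.SpA
import Cfsg.Agent.H60.Psu33
import Cfsg.Agent.SmallSimple.S1000.PSLFacts
import Cfsg.Agent.S0815
import Cfsg.Agent.S5805

/-!
# S3499, `Sp₆(2)` : the maximal subgroups containing `D` (helper84)

`exists_ga` : a maximal subgroup of `Sp₆(2)` which contains `D = ⟨tr (pt i)⟩` contains one of `ga 0`, `ga 1`, `ga 2`.
-/

set_option autoImplicit false

namespace Cfsg.Agent.H84.EP

open Cfsg Cfsg.Geo Matrix Subgroup Cfsg.Agent.SporRec.TwoSp6.Sp
open Cfsg.Agent.H876 (spToGL)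

/-- the list S5806 for `q = 2` -/
def Res56 : Prop := ∀ H : Subgroup (GL (Fin 3 ⊕ Fin 3) (ZMod 2)), IsMaximalIn (spGL 3 (ZMod 2)) H →
  InSymplecticResidualClass H → ∃ P : Subgroup (GL (Fin 3 ⊕ Fin 3) (ZMod 2)), IsResidualCore H P ∧
    ∃ (K : Type) (_ : Field K) (_ : Fintype K), Fintype.card K = 9 ∧
      Nonempty ((P ⧸ (scalars (Fin 3 ⊕ Fin 3) (ZMod 2)).subgroupOf P) ≃* PSU 3 K 3)

/-- `D` is contained in `H` -/
def HasD (H : Subgroup (GL (Fin 3 ⊕ Fin 3) (ZMod 2))) : Prop := ∀ i, spToGL 3 (ZMod 2) (tr (pt i)) ∈ H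

theorem mulVec_sp (g : S) (x : V) :
    ((spToGL 3 (ZMod 2) g : GL (Fin 3 ⊕ Fin 3) (ZMod 2)) : Matrix _ _ (ZMod 2)) *ᵥ x = act g x := rfl

theorem mem_stab {U : Submodule (ZMod 2) V} {g : S} :
    spToGL 3 (ZMod 2) g ∈ subspaceStabilizer U ↔ ∀ v, v ∈ U ↔ act g v ∈ U := Iff.rfl

/-- the vectors outside of `W` -/
theorem cases_vec (u : V) : u = 0 ∨ (∃ i, u = pt i) ∨ ∃ i, om u (pt i) = 1 := by
  obtain ⟨c, hc, rfl⟩ := exists_enc u
  have key : ∀ c < 64, c = 0 ∨ (∃ i : Fin 7, c = i.val + 1) ∨ ∃ i : Fin 7, fN c (i.val + 1) = true := by decide +kernel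
  rcases key c hc with h | ⟨i, h⟩ | ⟨i, h⟩
  · left
    rw [h]
    funext j
    rcases j with j | j <;> simp [enc, bitf]
  · right; left
    exact ⟨i, by rw [h]; rfl⟩
  · right; right
    refine ⟨i, ?_⟩
    unfold pt
    rw [om_enc, if_pos h]

/-- a subspace invariant under `D` -/
theorem pt_mem {U : Submodule (ZMod 2) V} (h : ∀ i, ∀ v ∈ U, act (tr (pt i)) v ∈ U) {u : V} (hu : u ∈ U) {i : Fin 7}
    (hi : om u (pt i) = 1) : pt i ∈ U := by
  have h1 := h i u hu
  rw [act_tr, hi, one_smul] at h1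
  exact (U.add_mem_iff_right hu).1 h1

/-- isotropic subspaces -/
theorem case_iso {U : Submodule (ZMod 2) V} (hU : U ≠ ⊥) (hs : IsTotallySingularFor (sympForm 3 (ZMod 2)) U)
    (h : ∀ i, ∀ v ∈ U, act (tr (pt i)) v ∈ U) : ∃ k, ∀ v, v ∈ U ↔ act (ga k) v ∈ U := by
  classical
  have hW : ∀ u ∈ U, u = 0 ∨ ∃ i, u = pt i := by
    intro u hu
    rcases cases_vec u with h1 | h1 | ⟨i, h1⟩
    · exact Or.inl h1
    · exact Or.inr h1
    · exfalso
      have h2 : om u (pt i) = 0 := hs u hu _ (pt_mem h hu h1)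
      rw [h1] at h2
      exact one_ne_zero h2
  obtain ⟨k, hk⟩ := exists_gp (fun i => decide (pt i ∈ U)) (by
    obtain ⟨u, hu, hu0⟩ := (Submodule.ne_bot_iff U).1 hU
    rcases hW u hu with h1 | ⟨i, rfl⟩
    · exact absurd h1 hu0
    · exact ⟨i, by simpa using hu⟩) (by
    intro i j l hij hi hj
    rw [decide_eq_true_iff] at hi hj ⊢
    rw [← pt_add hij]
    exact U.add_mem hi hj)
  have key : ∀ v ∈ U, act (ga k) v ∈ U := by
    intro v hv
    rcases hW v hv with rfl | ⟨i, rfl⟩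
    · have : act (ga k) 0 = 0 := Matrix.mulVec_zero _
      rw [this]
      exact U.zero_mem
    · rw [act_ga]
      have := hk i (by simpa using hv)
      simpa using this
  refine ⟨k, fun v => ⟨key v, fun hv => ?_⟩⟩
  have := key _ hv
  rwa [← act_mul, ga_sq, act_one] at this

/-- nondegenerate planes -/
theorem case_nd {U : Submodule (ZMod 2) V} (hU : U ≠ ⊥) (hn : IsNondegenerateOn (sympForm 3 (ZMod 2)) U)
    (hr : Module.finrank (ZMod 2) U < 3) (h : ∀ i, ∀ v ∈ U, act (tr (pt i)) v ∈ U) : False := by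
  have hex : ∃ u ∈ U, ∃ i, om u (pt i) = 1 := by
    by_contra hcon
    push Not at hcon
    have hW : ∀ u ∈ U, u = 0 ∨ ∃ i, u = pt i := by
      intro u hu
      rcases cases_vec u with h1 | h1 | ⟨i, h1⟩
      · exact Or.inl h1
      · exact Or.inr h1
      · exact absurd h1 (hcon u hu i)
    obtain ⟨u, hu, hu0⟩ := (Submodule.ne_bot_iff U).1 hU
    obtain ⟨⟨x, hx, hxu⟩, -⟩ := hn u hu hu0
    apply hxu
    rcases hW u hu with h1 | ⟨i, rfl⟩
    · exact absurd h1 hu0
    · rcases hW x hx with rfl | ⟨j, rfl⟩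
      · exact Cfsg.Agent.ClassicalGeometry.SympBasic.sympForm_zero_left _
      · exact om_pt j i
  obtain ⟨u, hu, i, hi⟩ := hex
  have hall : ∀ j, pt j ∈ U := by
    intro j
    rcases om_cases u (pt j) with h1 | h1
    · by_cases hij : i = j
      · rw [hij, h1] at hi
        exact absurd hi zero_ne_one
      · have hx : ∀ i j : Fin 7, i ≠ j → ∃ k : Fin 7, (i.val + 1) ^^^ (j.val + 1) = k.val + 1 := by decide
        obtain ⟨k, hk⟩ := hx i j hij
        have h2 := pt_add hk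
        have h3 : om u (pt k) = 1 := by rw [← h2, om_add, hi, h1, add_zero]
        have h4 := U.sub_mem (pt_mem h hu h3) (pt_mem h hu hi)
        rw [← h2, add_sub_cancel_left] at h4
        exact h4
    · exact pt_mem h hu h1
  have hli : LinearIndependent (ZMod 2) ![(⟨pt 0, hall 0⟩ : U), ⟨pt 1, hall 1⟩, ⟨pt 3, hall 3⟩] := by
    rw [Fintype.linearIndependent_iff]
    intro g hg
    rw [Fin.sum_univ_three] at hg
    have h1 : g 0 • pt 0 + g 1 • pt 1 + g 2 • pt 3 = 0 := congrArg Subtype.val hg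
    have key : ∀ a b c : ZMod 2, a • pt 0 + b • pt 1 + c • pt 3 = 0 → a = 0 ∧ b = 0 ∧ c = 0 := by decide +kernel
    obtain ⟨e0, e1, e2⟩ := key _ _ _ h1
    intro i
    fin_cases i
    · exact e0
    · exact e1
    · exact e2
  have h3 := hli.fintype_card_le_finrank
  rw [Fintype.card_fin] at h3
  omega

/-- a field of degree 3 -/
theorem case_field (K : Subalgebra (ZMod 2) (Matrix (Fin 3 ⊕ Fin 3) (Fin 3 ⊕ Fin 3) (ZMod 2)))
    (hK : IsFieldSubalgebra 3 K) (h : spToGL 3 (ZMod 2) (tr (pt 0)) ∈ subalgebraNormalizer K) : False := by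
  set t : GL (Fin 3 ⊕ Fin 3) (ZMod 2) := spToGL 3 (ZMod 2) (tr (pt 0)) with ht
  have hti : t⁻¹ = t := inv_eq_of_mul_eq_one_right (by rw [ht, ← map_mul, tr_sq, map_one])
  set T : Matrix (Fin 3 ⊕ Fin 3) (Fin 3 ⊕ Fin 3) (ZMod 2) := (tr (pt 0) : S).1 with hT
  have hTv : ∀ v : V, T *ᵥ v = v + om v (pt 0) • pt 0 := fun v => act_tr _ _
  -- commutation
  have hcomm : ∀ k ∈ K, T * k * T = k := by
    intro k hk
    have h1 : T * k * T ∈ K := by
      have h2 := (h k).1 hk
      rw [hti] at h2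
      exact h2
    have h3 : T * k * T - k ∈ K := K.sub_mem h1 hk
    by_contra hne
    obtain ⟨y, -, hy⟩ := hK.inv _ h3 (sub_ne_zero.2 hne)
    have hy' : y * (T * k * T - k) = 1 := mul_eq_one_comm.1 hy
    -- a vector killed by `T k T - k`
    obtain ⟨v, hv0, hv1, hv2⟩ : ∃ v : V, v ≠ 0 ∧ om v (pt 0) = 0 ∧ om (k *ᵥ v) (pt 0) = 0 := by
      let f : V →ₗ[ZMod 2] (Fin 2 → ZMod 2) := {
        toFun := fun v => ![om v (pt 0), om (k *ᵥ v) (pt 0)]
        map_add' := by
          intro x y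
          ext i
          fin_cases i
          · exact om_add' x y _
          · show om (k *ᵥ (x + y)) (pt 0) = _
            rw [Matrix.mulVec_add]
            exact om_add' _ _ _
        map_smul' := by
          intro c x
          ext i
          fin_cases i
          · exact Cfsg.Agent.ClassicalGeometry.SympBasic.sympForm_smul_left _ _ _
          · show om (k *ᵥ (c • x)) (pt 0) = _
            rw [Matrix.mulVec_smul]
            exact Cfsg.Agent.ClassicalGeometry.SympBasic.sympForm_smul_left _ _ _ }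
      have h4 : LinearMap.ker f ≠ ⊥ := by
        intro hbot
        have h5 := LinearMap.finrank_le_finrank_of_injective (LinearMap.ker_eq_bot.1 hbot)
        rw [Module.finrank_fintype_fun_eq_card, Module.finrank_fintype_fun_eq_card] at h5
        simp at h5
      obtain ⟨v, hv, hv0⟩ := (Submodule.ne_bot_iff _).1 h4
      have hv' : f v = 0 := hv
      exact ⟨v, hv0, congrFun hv' 0, congrFun hv' 1⟩
    have h5 : (T * k * T - k) *ᵥ v = 0 := by
      rw [Matrix.sub_mulVec, ← Matrix.mulVec_mulVec, ← Matrix.mulVec_mulVec, hTv v, hv1, zero_smul, add_zero, hTv, hv2,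
        zero_smul, add_zero, sub_self]
    apply hv0
    have h6 := congrArg (fun w => y *ᵥ w) h5
    simp only [Matrix.mulVec_mulVec, hy', Matrix.one_mulVec, Matrix.mulVec_zero] at h6
    exact h6
  -- every element of `K` is 0 or 1
  have hTT : T * T = 1 := congrArg Subtype.val (tr_sq (pt 0))
  have hK01 : ∀ k ∈ K, k = 0 ∨ k = 1 := by
    intro k hk
    have h1 : T * k = k * T := by
      have := congrArg (fun X => X * T) (hcomm k hk)
      simp only [mul_assoc, hTT, mul_one] at this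
      exact this
    obtain ⟨v, hv⟩ := exists_om_one (pt_ne 0)
    rw [om_symm] at hv
    have h2 := congrArg (fun X => X *ᵥ v) h1
    simp only [← Matrix.mulVec_mulVec] at h2
    rw [hTv, hTv, hv, one_smul, Matrix.mulVec_add] at h2
    have h3 : om (k *ᵥ v) (pt 0) • pt 0 = k *ᵥ pt 0 := add_left_cancel h2
    have h4 : ∀ x : Matrix (Fin 3 ⊕ Fin 3) (Fin 3 ⊕ Fin 3) (ZMod 2), x ∈ K → x *ᵥ pt 0 = 0 → x = 0 := by
      intro x hx hx0
      by_contra hne
      obtain ⟨y, -, hy⟩ := hK.inv _ hx hne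
      have hy' : y * x = 1 := mul_eq_one_comm.1 hy
      apply pt_ne 0
      have h6 := congrArg (fun w => y *ᵥ w) hx0
      simp only [Matrix.mulVec_mulVec, hy', Matrix.one_mulVec, Matrix.mulVec_zero] at h6
      exact h6
    rcases om_cases (k *ᵥ v) (pt 0) with h5 | h5
    · left
      apply h4 k hk
      rw [← h3, h5, zero_smul]
    · right
      have h6 := h4 (k - 1) (K.sub_mem hk K.one_mem) (by
        rw [Matrix.sub_mulVec, ← h3, h5, one_smul, Matrix.one_mulVec, sub_self])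
      exact sub_eq_zero.1 h6
  have hfin := hK.finrank_eq
  have h1 : Module.finrank (ZMod 2) K ≤ 1 := by
    refine finrank_le_one (⟨1, K.one_mem⟩ : K) ?_
    rintro ⟨k, hk⟩
    rcases hK01 k hk with rfl | rfl
    · exact ⟨0, by ext1; simp⟩
    · exact ⟨1, by ext1; simp⟩
  omega

/-- a quadratic form -/
theorem case_quad (Q : V → ZMod 2) (hQ : ∀ u v, QuadraticMap.polar Q u v = sympForm 3 (ZMod 2) u v)
    (h : ∀ i, spToGL 3 (ZMod 2) (tr (pt i)) ∈ quadSimilarityGroup Q) : False := by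
  have hadd : ∀ u v, Q (u + v) = Q u + Q v + om u v := by
    intro u v
    have := hQ u v
    unfold QuadraticMap.polar at this
    rw [show om u v = sympForm 3 (ZMod 2) u v from rfl, ← this]
    ring
  have h1 : ∀ i, Q (pt i) = 1 := by
    intro i
    obtain ⟨c, hc⟩ := h i
    have hc1 : (c : ZMod 2) = 1 := by
      have : ∀ c : (ZMod 2)ˣ, (c : ZMod 2) = 1 := by decide
      exact this c
    obtain ⟨v, hv⟩ := exists_om_one (pt_ne i)
    rw [om_symm] at hv
    have h2 := hc v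
    rw [hc1, one_mul, mulVec_sp, act_tr, hv, one_smul, hadd, hv] at h2
    have h3 : ∀ a b : ZMod 2, a + b + 1 = a → b = 1 := by decide
    exact h3 _ _ h2
  have h2 := hadd (pt 0) (pt 1)
  rw [pt_add (i := 0) (j := 1) (k := 2) (by decide), h1, h1, h1, om_pt] at h2
  exact absurd h2 (by decide)

/-- the unipotent radical as a group -/
def UU (B : {B : Matrix (Fin 3) (Fin 3) (ZMod 2) // Bᵀ = B}) : S :=
  ⟨fromBlocks 1 B.1 0 1, by
    rw [SymplecticGroup.mem_iff, Matrix.J, fromBlocks_transpose, fromBlocks_multiply, fromBlocks_multiply]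
    congr 1
    · simp [B.2]
    · simp
    · simp
    · simp⟩

theorem UU_inj : Function.Injective UU := by
  intro B C h
  have h1 : fromBlocks (1 : Matrix (Fin 3) (Fin 3) (ZMod 2)) B.1 0 1 = fromBlocks 1 C.1 0 1 := congrArg Subtype.val h
  exact Subtype.ext (fromBlocks_inj.1 h1).2.1

theorem UU_sq (B : {B : Matrix (Fin 3) (Fin 3) (ZMod 2) // Bᵀ = B}) : UU B * UU B = 1 := by
  apply Subtype.ext
  show fromBlocks (1 : Matrix (Fin 3) (Fin 3) (ZMod 2)) B.1 0 1 * fromBlocks 1 B.1 0 1 = 1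
  rw [fromBlocks_multiply]
  have : B.1 + B.1 = 0 := by
    ext i j
    exact CharTwo.add_self_eq_zero _
  simp [this]

theorem card_sym : Nat.card {B : Matrix (Fin 3) (Fin 3) (ZMod 2) // Bᵀ = B} = 64 := by
  rw [Nat.card_eq_fintype_card]
  decide +kernel

/-- the six generators -/
def sx : Fin 6 → Fin 7 := ![0, 1, 3, 2, 4, 5]

theorem act_UU (B : {B : Matrix (Fin 3) (Fin 3) (ZMod 2) // Bᵀ = B}) (x : V) :
    act (UU B) x = Sum.elim (x ∘ Sum.inl + B.1 *ᵥ (x ∘ Sum.inr)) (x ∘ Sum.inr) := by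
  show fromBlocks 1 B.1 0 1 *ᵥ x = _
  conv_lhs => rw [← Sum.elim_comp_inl_inr x]
  rw [fromBlocks_mulVec]
  simp

/-- the symmetric matrices of rank one -/
def ww (i : Fin 7) : Matrix (Fin 3) (Fin 3) (ZMod 2) := fun a b => pt i (Sum.inl a) * pt i (Sum.inl b)

theorem ww_symm (i : Fin 7) : (ww i)ᵀ = ww i := by
  ext a b
  exact mul_comm _ _

theorem tr_eq (i : Fin 7) : tr (pt i) = UU ⟨ww i, ww_symm i⟩ := by
  apply act_ext
  intro x
  rw [act_tr, act_UU]
  revert i x
  decide +kernel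

theorem sym_eq : ∀ B : {B : Matrix (Fin 3) (Fin 3) (ZMod 2) // Bᵀ = B}, ∃ s : Fin 6 → ZMod 2,
    B.1 = ∑ i, s i • ww (sx i) := by
  decide +kernel

theorem UU_mem {H : Subgroup S} (h : ∀ i, tr (pt i) ∈ H) (B : {B : Matrix (Fin 3) (Fin 3) (ZMod 2) // Bᵀ = B}) :
    UU B ∈ H := by
  obtain ⟨s, hs⟩ := sym_eq B
  have key : ∃ hB : (∑ i, s i • ww (sx i))ᵀ = ∑ i, s i • ww (sx i), UU ⟨_, hB⟩ ∈ H := by
    refine Finset.sum_induction _ (fun C => ∃ hB : Cᵀ = C, UU ⟨C, hB⟩ ∈ H) ?_ ?_ ?_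
    · rintro C C' ⟨h1, h2⟩ ⟨h3, h4⟩
      have h5 : (C + C')ᵀ = C + C' := by rw [transpose_add, h1, h3]
      refine ⟨h5, ?_⟩
      have h6 : UU ⟨C + C', h5⟩ = UU ⟨C, h1⟩ * UU ⟨C', h3⟩ := by
        apply Subtype.ext
        show fromBlocks 1 (C + C') 0 1 = fromBlocks (1 : Matrix (Fin 3) (Fin 3) (ZMod 2)) C 0 1 * fromBlocks 1 C' 0 1
        rw [fromBlocks_multiply]
        simp [add_comm]
      rw [h6]
      exact mul_mem h2 h4
    · refine ⟨by simp, ?_⟩
      have h6 : UU ⟨0, by simp⟩ = 1 := by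
        apply Subtype.ext
        show fromBlocks (1 : Matrix (Fin 3) (Fin 3) (ZMod 2)) 0 0 1 = 1
        exact fromBlocks_one
      rw [h6]
      exact one_mem _
    · intro i _
      have h7 : ∀ c : ZMod 2, c = 0 ∨ c = 1 := by decide
      rcases h7 (s i) with h8 | h8
      · rw [h8, zero_smul]
        refine ⟨by simp, ?_⟩
        have h6 : UU ⟨0, by simp⟩ = 1 := by
          apply Subtype.ext
          show fromBlocks (1 : Matrix (Fin 3) (Fin 3) (ZMod 2)) 0 0 1 = 1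
          exact fromBlocks_one
        rw [h6]
        exact one_mem _
      · rw [h8, one_smul]
        exact ⟨ww_symm _, by rw [← tr_eq]; exact h _⟩
  obtain ⟨hB, h1⟩ := key
  have h2 : B = ⟨_, hB⟩ := Subtype.ext hs
  rw [h2]
  exact h1

theorem card_aut {P : Type*} [Group P] {K : Type} [Field K] [Fintype K] (hK : Fintype.card K = 9) (e : P ≃* PSU 3 K 3) :
    Nat.card (MulAut P) = 12096 := by
  have hp3 : Fact (Nat.Prime 3) := ⟨Nat.prime_three⟩
  rw [Nat.card_congr (MulAut.congr e).toEquiv,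
    Cfsg.Agent.S0815.result 3 1 le_rfl (q := 3) (by norm_num) (by rw [hK]; norm_num) 3 le_rfl (by norm_num),
    Cfsg.Agent.SmallSimple.PSLFacts.card_psu_three_three hK]
  norm_num

/-- an abstract form of the residual case -/
theorem res_abs {H : Type*} [Group H] [Finite H] (P : Subgroup H) [P.Normal] (hc : centralizer (P : Set H) = ⊥) {K : Type}
    [Field K] [Fintype K] (hK : Fintype.card K = 9) (e : P ≃* PSU 3 K 3) (D : Subgroup H) (hD : Nat.card D = 64)
    (hD2 : ∀ d ∈ D, d * d = 1) : False := by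
  classical
  have hφ : Function.Injective (MulAut.conjNormal : H →* MulAut P) := by
    rw [injective_iff_map_eq_one]
    intro h hh
    rw [← mem_bot, ← hc, mem_centralizer_iff]
    intro x hx
    have h1 : (MulAut.conjNormal h (⟨x, hx⟩ : P) : H) = x := by rw [hh]; rfl
    rw [MulAut.conjNormal_apply] at h1
    calc x * h = (h * x * h⁻¹) * h := by rw [h1]
      _ = h * x := by group
  have hcard : Nat.card (MulAut P) = 12096 := card_aut hK e
  have hdvd : Nat.card H ∣ 12096 := by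
    rw [← hcard]
    have : Finite (MulAut P) := Nat.finite_of_card_ne_zero (by rw [hcard]; decide)
    exact Subgroup.card_dvd_of_injective _ hφ
  have hDp : IsPGroup 2 D := IsPGroup.of_card (n := 6) (by rw [hD]; rfl)
  have hp2 : Fact (Nat.Prime 2) := ⟨Nat.prime_two⟩
  obtain ⟨Q, hQ⟩ := hDp.exists_le_sylow
  have hDQ : D = Q := by
    refine Subgroup.eq_of_le_of_card_ge hQ ?_
    obtain ⟨k, hk⟩ := IsPGroup.iff_card.1 Q.2
    rw [hk, hD, show (64 : ℕ) = 2 ^ 6 from rfl]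
    refine Nat.pow_le_pow_right (by norm_num) ?_
    by_contra hk1
    have h1 : 2 ^ 7 ∣ 12096 := ((pow_dvd_pow 2 (by omega : 7 ≤ k)).trans
      (by rw [← hk]; exact Subgroup.card_subgroup_dvd_card _)).trans hdvd
    exact absurd h1 (by norm_num)
  obtain ⟨-, h, -, -, hh⟩ := Cfsg.Agent.H60.Psu33.psu33 hK
  set y : H := ((e.symm h : P) : H) with hy
  have hy8 : orderOf y = 8 := by
    rw [← hh, hy, Subgroup.orderOf_coe]
    exact orderOf_injective e.symm.toMonoidHom e.symm.injective h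
  have hyp : IsPGroup 2 (zpowers y) := IsPGroup.of_card (n := 3) (by rw [Nat.card_zpowers, hy8]; rfl)
  obtain ⟨R, hR⟩ := hyp.exists_le_sylow
  obtain ⟨g, hg⟩ := MulAction.exists_smul_eq H R Q
  have h1 : g * y * g⁻¹ ∈ D := by
    rw [hDQ, ← hg]
    have h2 : y ∈ (R : Subgroup H) := hR (mem_zpowers y)
    exact ⟨y, h2, rfl⟩
  have h2 : y * y = 1 := by
    have := hD2 _ h1
    have h3 : g * y * g⁻¹ * (g * y * g⁻¹) = g * (y * y) * g⁻¹ := by group
    rw [h3] at this
    simpa using this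
  have h3 : orderOf y ∣ 2 := orderOf_dvd_iff_pow_eq_one.2 (by rw [sq, h2])
  rw [hy8] at h3
  exact absurd h3 (by norm_num)

theorem scal_one {g : GL (Fin 3 ⊕ Fin 3) (ZMod 2)} (hg : g ∈ scalars (Fin 3 ⊕ Fin 3) (ZMod 2)) : g = 1 := by
  rw [mem_scalars_iff] at hg
  obtain ⟨c, hc⟩ := hg
  have hc1 : (c : ZMod 2) = 1 := by
    have : ∀ c : (ZMod 2)ˣ, (c : ZMod 2) = 1 := by decide
    exact this c
  rw [hc1, one_smul] at hc
  exact Units.ext hc

/-- the unipotent radical in `H` -/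
theorem exists_D {H : Subgroup (GL (Fin 3 ⊕ Fin 3) (ZMod 2))} (hD : HasD H) :
    ∃ D : Subgroup H, Nat.card D = 64 ∧ ∀ d ∈ D, d * d = 1 := by
  have hcomap : ∀ i, tr (pt i) ∈ H.comap (spToGL 3 (ZMod 2)) := hD
  have hUU : ∀ B, spToGL 3 (ZMod 2) (UU B) ∈ H := fun B => UU_mem hcomap B
  let f : {B : Matrix (Fin 3) (Fin 3) (ZMod 2) // Bᵀ = B} → H := fun B => ⟨_, hUU B⟩
  have hf : Function.Injective f := by
    intro B C h
    apply UU_inj
    have h1 : spToGL 3 (ZMod 2) (UU B) = spToGL 3 (ZMod 2) (UU C) := congrArg Subtype.val h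
    exact Subtype.ext (congrArg Units.val h1)
  have hfmul : ∀ B C, ∃ E, f B * f C = f E := by
    intro B C
    refine ⟨⟨B.1 + C.1, by rw [transpose_add, B.2, C.2]⟩, ?_⟩
    apply Subtype.ext
    show spToGL 3 (ZMod 2) (UU B) * spToGL 3 (ZMod 2) (UU C) = _
    rw [← map_mul]
    congr 1
    apply Subtype.ext
    show fromBlocks (1 : Matrix (Fin 3) (Fin 3) (ZMod 2)) B.1 0 1 * fromBlocks 1 C.1 0 1 = fromBlocks 1 (B.1 + C.1) 0 1
    rw [fromBlocks_multiply]
    simp [add_comm]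
  have hfsq : ∀ B, f B * f B = 1 := by
    intro B
    apply Subtype.ext
    show spToGL 3 (ZMod 2) (UU B) * spToGL 3 (ZMod 2) (UU B) = 1
    rw [← map_mul, UU_sq, map_one]
  have hf1 : ∃ B, f B = 1 := by
    obtain ⟨E, hE⟩ := hfmul ⟨0, by simp⟩ ⟨0, by simp⟩
    exact ⟨E, by rw [← hE, hfsq]⟩
  refine ⟨{ carrier := Set.range f
            one_mem' := hf1
            mul_mem' := by
              rintro _ _ ⟨B, rfl⟩ ⟨C, rfl⟩
              obtain ⟨E, hE⟩ := hfmul B C
              exact ⟨E, hE.symm⟩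
            inv_mem' := by
              rintro _ ⟨B, rfl⟩
              exact ⟨B, (inv_eq_of_mul_eq_one_right (hfsq B)).symm⟩ }, ?_, ?_⟩
  · rw [← card_sym]
    exact Nat.card_congr (Equiv.ofInjective f hf).symm
  · rintro _ ⟨B, rfl⟩
    exact hfsq B

/-- the residual class -/
theorem case_res (h56 : Res56) {H : Subgroup (GL (Fin 3 ⊕ Fin 3) (ZMod 2))} (hH : IsMaximalIn (spGL 3 (ZMod 2)) H)
    (hS : InSymplecticResidualClass H) (hD : HasD H) : False := by
  classical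
  obtain ⟨P, hP, K, _, _, hK, ⟨e⟩⟩ := h56 H hH hS
  have hbot : (scalars (Fin 3 ⊕ Fin 3) (ZMod 2)).subgroupOf P = ⊥ := by
    rw [eq_bot_iff]
    intro x hx
    rw [mem_bot]
    exact Subtype.ext (scal_one hx)
  let e1 : P ≃* PSU 3 K 3 := ((QuotientGroup.quotientBot (G := P)).symm.trans
    (QuotientGroup.quotientMulEquivOfEq hbot.symm)).trans e
  have hn : (P.subgroupOf H).Normal := ⟨by
    intro x hx h
    exact hP.normal _ h.2 _ hx⟩
  obtain ⟨D, hD1, hD2⟩ := exists_D hD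
  refine res_abs (P.subgroupOf H) ?_ hK ((Subgroup.subgroupOfEquivOfLe hP.le).trans e1) D hD1 hD2
  rw [eq_bot_iff]
  intro h hh
  rw [mem_bot]
  apply Subtype.ext
  apply scal_one
  refine hP.centralizer_scalar _ h.2 fun x hx => ?_
  have h1 := mem_centralizer_iff.1 hh ⟨x, hP.le hx⟩ hx
  have h2 : x * h.1 = h.1 * x := congrArg Subtype.val h1
  have h3 : h.1 * x * h.1⁻¹ * x⁻¹ = 1 := by rw [← h2]; group
  rw [h3]
  exact one_mem _

/-- **a maximal subgroup of `Sp₆(2)` containing `D` contains `ga 0`, `ga 1` or `ga 2`** -/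
theorem exists_ga (h56 : Res56) {H : Subgroup (GL (Fin 3 ⊕ Fin 3) (ZMod 2))} (hH : IsMaximalIn (spGL 3 (ZMod 2)) H)
    (hD : HasD H) : ∃ k, spToGL 3 (ZMod 2) (ga k) ∈ H := by
  have hc : Fintype.card (ZMod 2) = 2 := ZMod.card 2
  have hsp : ∀ g : S, spToGL 3 (ZMod 2) g ∈ spGL 3 (ZMod 2) := fun g => Cfsg.Agent.H931.spToGL_mem g
  have hst : ∀ {W : Submodule (ZMod 2) V}, H = subspaceStabilizer W ⊓ spGL 3 (ZMod 2) →
      ∀ i, ∀ v ∈ W, act (tr (pt i)) v ∈ W := by
    intro W hW i v hv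
    have h1 := hD i
    rw [hW] at h1
    exact (mem_stab.1 h1.1 v).1 hv
  rcases Cfsg.Agent.S5805.result H hH with ⟨W, hW, hs, hHW⟩ | ⟨W, hW, hn, hr, hHW⟩ | ⟨h3, -⟩ | ⟨ho, -⟩ | ⟨K, hK, -, -, hHK⟩ |
    ⟨ho, -⟩ | ⟨ho, -⟩ | ⟨F₀, r, P, ζ, hr, hcard, -⟩ | ⟨-, Q, -, hQ, hHQ⟩ | hS
  · obtain ⟨k, hk⟩ := case_iso hW hs (hst hHW)
    refine ⟨k, ?_⟩
    rw [hHW]
    exact ⟨mem_stab.2 hk, hsp _⟩
  · exact (case_nd hW hn hr (hst hHW)).elim
  · rw [hc] at h3
    omega
  · rw [hc] at ho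
    exact absurd ho (by decide)
  · have h1 := hD 0
    rw [hHK] at h1
    exact (case_field K hK h1.1).elim
  · rw [hc] at ho
    exact absurd ho (by decide)
  · rw [hc] at ho
    exact absurd ho (by decide)
  · exfalso
    have h1 : 2 ≤ Nat.card F₀ := Finite.one_lt_card
    have h2 : 2 ^ 2 ≤ Nat.card F₀ ^ r := (Nat.pow_le_pow_right (by norm_num) hr.two_le).trans (Nat.pow_le_pow_left h1 r)
    rw [← hcard, hc] at h2
    omega
  · refine (case_quad Q hQ fun i => ?_).elim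
    have h1 := hD i
    rw [hHQ] at h1
    exact h1.1
  · exact (case_res h56 hH hS hD).elim

end Cfsg.Agent.H84.EP
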