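import Cfsg.Agent.H84.EP.Form
import Cfsg.Agent.H84.EP.SpB
import Cfsg.Agent.H180.LElSpFinal
import Cfsg.Agent.H775.EP.ModelOmega
import Cfsg.Agent.H419.EP.Soc

/-!
# S3499, `Ω₇(q)` with stabiliser `Sp₆(2)` (helper84)
-/

set_option autoImplicit false

namespace Cfsg.Agent.H84.EP

open Cfsg Cfsg.Geo Matrix Subgroup Cfsg.Agent.SporRec.TwoSp6.Sp Cfsg.Agent.H284 Cfsg.Agent.H419.EP
open Cfsg.Agent.H876 (spToGL)
open scoped MatrixGroups commutatorElement

/-- the elements of `Ω` have determinant 1 -/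
theorem det_omega {F : Type*} [Field F] {ι : Type} [Fintype ι] [DecidableEq ι] {Q : (ι → F) → F} {g : GL ι F}
    (hg : g ∈ omegaGL Q) : (g : Matrix ι ι F).det = 1 := by
  obtain ⟨g, hg, rfl⟩ := hg
  have h1 := Abelianization.commutator_subset_ker
    ((Matrix.GeneralLinearGroup.det : GL ι F →* Fˣ).comp (isometryGroup F Q).subtype) hg
  exact congrArg Units.val (MonoidHom.mem_ker.1 h1)

theorem iso_of_omega {F : Type*} [Field F] {ι : Type} [Fintype ι] [DecidableEq ι] {Q : (ι → F) → F} {g : GL ι F}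
    (hg : g ∈ omegaGL Q) : g ∈ isometryGroup F Q := by
  obtain ⟨g, -, rfl⟩ := hg
  exact g.2

/-- in odd dimension `Ω` has no scalars -/
theorem scal_omega {F : Type*} [Field F] {ι : Type} [Fintype ι] [DecidableEq ι] {Q : (ι → F) → F}
    (hQ : IsNondegenerateQuadraticForm Q) (hι : Fintype.card ι = 7) {g : GL ι F} (hg : g ∈ omegaGL Q)
    (hs : g ∈ scalars ι F) : g = 1 := by
  rw [mem_scalars_iff] at hs
  obtain ⟨c, hc⟩ := hs
  have h1 := det_omega hg
  rw [hc, Matrix.det_smul, Matrix.det_one, mul_one, hι] at h1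
  have h2 : ∃ v, Q v ≠ 0 := by
    by_contra hcon
    push Not at hcon
    have : Nonempty ι := Fintype.card_pos_iff.1 (by omega)
    obtain ⟨i⟩ := this
    obtain ⟨⟨x, hx⟩, -⟩ := hQ.nondegenerate (Pi.single i 1) (by simp)
    apply hx
    unfold QuadraticMap.polar
    rw [hcon, hcon, hcon]
    simp
  obtain ⟨v, hv⟩ := h2
  have h3 := mem_iso.1 (iso_of_omega hg) v
  have h4 : av g v = (c : F) • v := by
    unfold av
    rw [hc, Matrix.smul_mulVec, Matrix.one_mulVec]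
  rw [h4, hQ.smul] at h3
  have h5 : ((c : F) ^ 2 - 1) * Q v = 0 := by rw [sub_mul, h3, one_mul, sub_self]
  have h6 : (c : F) ^ 2 = 1 := sub_eq_zero.1 ((mul_eq_zero.1 h5).resolve_right hv)
  have h7 : (c : F) = 1 := by
    calc (c : F) = (c : F) ^ 7 := by
          calc (c : F) = ((c : F) ^ 2) ^ 3 * c := by rw [h6]; ring
            _ = (c : F) ^ 7 := by ring
      _ = 1 := h1
  apply Units.ext
  rw [hc, h7, one_smul]
  rfl

/-- `A` itself is `Sp₆(2)` -/
theorem exists_equiv {Q : Type*} [Group Q] {A : Subgroup Q} (hA : HasSoc A (PSp 3 (ZMod 2))) : Nonempty (S ≃* A) := by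
  obtain ⟨N, hNA, hn, hc, ⟨e0⟩⟩ := hA
  have hF : Fintype.card (ZMod 2) = 2 := ZMod.card 2
  let e : N ≃* S := e0.trans (Cfsg.Agent.H180.LEl.pspEquiv hF (m := 3) (by norm_num)).symm
  have hAN : A = N := by
    refine le_antisymm (fun a ha => ?_) hNA
    have hn' : (N.subgroupOf A).Normal := ⟨by
      rintro ⟨n, hn'⟩ hn1 ⟨a, ha⟩
      exact hn a ha n hn1⟩
    let E : (N.subgroupOf A) ≃* S := (Subgroup.subgroupOfEquivOfLe hNA).trans e
    let φ : MulAut (N.subgroupOf A) := MulAut.conjNormal (⟨a, ha⟩ : A)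
    obtain ⟨g, hg⟩ := Cfsg.Agent.H180.LEl.sp_inner hF (m := 3) le_rfl ((E.symm.trans φ).trans E)
    let n : N.subgroupOf A := E.symm g
    have h1 : ∀ y : N.subgroupOf A, φ y = n * y * n⁻¹ := by
      intro y
      apply E.injective
      have h2 := hg (E y)
      have h3 : E (φ (E.symm (E y))) = g * E y * g⁻¹ := h2
      rw [E.symm_apply_apply] at h3
      rw [h3, map_mul, map_mul, map_inv, E.apply_symm_apply]
    have h2 : (n : A).1⁻¹ * a = 1 := by
      refine hc _ (A.mul_mem (A.inv_mem (n : A).2) ha) fun y hy => ?_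
      have h3 := h1 ⟨⟨y, hNA hy⟩, hy⟩
      have h4 : a * y * a⁻¹ = (n : A).1 * y * (n : A).1⁻¹ := by
        have h5 := congrArg (fun z : (N.subgroupOf A) => ((z : A) : Q)) h3
        simpa [φ, MulAut.conjNormal_apply] using h5
      calc (n : A).1⁻¹ * a * y = (n : A).1⁻¹ * (a * y * a⁻¹) * a := by group
        _ = (n : A).1⁻¹ * ((n : A).1 * y * (n : A).1⁻¹) * a := by rw [h4]
        _ = y * ((n : A).1⁻¹ * a) := by group
    have h3 : a = (n : A).1 := (inv_mul_eq_one.1 h2).symm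
    rw [h3]
    exact n.2
  subst hAN
  exact ⟨e.symm⟩

/-- the group `Γ` consists of the inner automorphisms of `A` -/
theorem exists_conj {Q : Type*} [Group Q] {A : Subgroup Q} {Γ : Subgroup (MulAut Q)} (h : EPT A Γ) (e : S ≃* A)
    {σ : MulAut Q} (hσ : σ ∈ Γ) : ∃ a ∈ A, σ = MulAut.conj a := by
  have hF : Fintype.card (ZMod 2) = 2 := ZMod.card 2
  let φ : A ≃* A :=
    { toFun := fun a => ⟨σ a, (h.inv σ hσ a).2 a.2⟩
      invFun := fun a => ⟨σ⁻¹ a, (h.inv σ⁻¹ (Γ.inv_mem hσ) a).2 a.2⟩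
      left_inv := fun a => Subtype.ext (MulAut.inv_apply_self Q σ a)
      right_inv := fun a => Subtype.ext (MulAut.apply_inv_self Q σ a)
      map_mul' := fun a b => Subtype.ext (map_mul σ _ _) }
  obtain ⟨g, hg⟩ := Cfsg.Agent.H180.LEl.sp_inner hF (m := 3) le_rfl ((e.trans φ).trans e.symm)
  refine ⟨e g, (e g).2, ?_⟩
  have h1 : ∀ a ∈ A, σ a = (e g : Q) * a * (e g : Q)⁻¹ := by
    intro a ha
    have h2 := hg (e.symm ⟨a, ha⟩)
    have h3 : e.symm (φ (e (e.symm ⟨a, ha⟩))) = g * e.symm ⟨a, ha⟩ * g⁻¹ := h2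
    rw [e.apply_symm_apply, MulEquiv.symm_apply_eq, map_mul, map_mul, map_inv, e.apply_symm_apply] at h3
    exact congrArg Subtype.val h3
  have h2 : (MulAut.conj (e g : Q))⁻¹ * σ = 1 := by
    refine h.cent _ (Γ.mul_mem (Γ.inv_mem ((h.conj _).2 (e g).2)) hσ) fun a ha => ?_
    rw [MulAut.mul_apply, h1 a ha, ← MulAut.conj_apply, MulAut.inv_apply_self]
  exact (inv_mul_eq_one.1 h2).symm

theorem sp_inj {s t : S} (h : spToGL 3 (ZMod 2) s = spToGL 3 (ZMod 2) t) : s = t :=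
  Subtype.ext (congrArg Units.val h)

/-- the two point stabiliser in `Sp₆(2)` -/
noncomputable def pre {Q : Type*} [Group Q] {A : Subgroup Q} (e : S ≃* A) (x : Q) : Subgroup (GL (Fin 3 ⊕ Fin 3) (ZMod 2)) :=
  (((cj x A).comap A.subtype).comap e.toMonoidHom).map (spToGL 3 (ZMod 2))

theorem mem_pre {Q : Type*} [Group Q] {A : Subgroup Q} {e : S ≃* A} {x : Q} {s : S} :
    spToGL 3 (ZMod 2) s ∈ pre e x ↔ x⁻¹ * (e s : Q) * x ∈ A := by
  constructor
  · rintro ⟨t, ht, hts⟩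
    rw [← sp_inj hts]
    exact mem_cj.1 ht
  · intro hs
    exact ⟨s, mem_cj.2 hs, rfl⟩

/-- the two point stabiliser is maximal in `Sp₆(2)` -/
theorem isMax {Q : Type*} [Group Q] {A : Subgroup Q} {Γ : Subgroup (MulAut Q)} (h : EPT A Γ)
    (hc : ∀ a ∈ A, (∀ b ∈ A, a * b = b * a) → a = 1) (e : S ≃* A) {x : Q} (hx : x ∉ A) :
    IsMaximalIn (spGL 3 (ZMod 2)) (pre e x) := by
  have hmem : ∀ s : S, spToGL 3 (ZMod 2) s ∈ pre e x ↔ x⁻¹ * (e s : Q) * x ∈ A := fun s => mem_pre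
  refine ⟨lt_of_le_of_ne ?_ ?_, ?_⟩
  · rintro _ ⟨s, -, rfl⟩
    exact Cfsg.Agent.H931.spToGL_mem s
  · intro heq
    apply hx
    rw [← inv_inv x]
    apply A.inv_mem
    refine h.selfnorm _ fun a ha => ?_
    rw [inv_inv]
    have h1 : spToGL 3 (ZMod 2) (e.symm ⟨a, ha⟩) ∈ spGL 3 (ZMod 2) := Cfsg.Agent.H931.spToGL_mem _
    rw [← heq, hmem, e.apply_symm_apply] at h1
    exact h1
  · intro M h1 h2
    let L : Subgroup (MulAut Q) :=
      ((((M.comap (spToGL 3 (ZMod 2))).comap e.symm.toMonoidHom).map A.subtype).map (MulAut.conj : Q →* MulAut Q))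
    have hL : ∀ a (ha : a ∈ A), MulAut.conj a ∈ L ↔ spToGL 3 (ZMod 2) (e.symm ⟨a, ha⟩) ∈ M := by
      intro a ha
      constructor
      · rintro ⟨_, ⟨b, hb, rfl⟩, hab⟩
        have h3 : a = b := by
          have h4 : a⁻¹ * b = 1 := by
            refine hc _ (A.mul_mem (A.inv_mem ha) b.2) fun y hy => ?_
            have h5 : (b : Q) * y * (b : Q)⁻¹ = a * y * a⁻¹ := DFunLike.congr_fun hab y
            calc a⁻¹ * b * y = a⁻¹ * (b * y * (b : Q)⁻¹) * b := by group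
              _ = a⁻¹ * (a * y * a⁻¹) * b := by rw [h5]
              _ = y * (a⁻¹ * b) := by group
          exact inv_mul_eq_one.1 h4
        subst h3
        exact hb
      · intro hM
        exact ⟨a, ⟨⟨a, ha⟩, hM, rfl⟩, rfl⟩
    have hLΓ : L ≤ Γ := by
      rintro _ ⟨_, ⟨b, -, rfl⟩, rfl⟩
      exact (h.conj _).2 b.2
    have hst : ∀ σ ∈ Γ, x⁻¹ * σ x ∈ A → σ ∈ L := by
      intro σ hσ hσx
      obtain ⟨a, ha, rfl⟩ := exists_conj h e hσ
      rw [hL a ha]
      apply h1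
      rw [hmem, e.apply_symm_apply]
      have h3 : x⁻¹ * a * x = x⁻¹ * (MulAut.conj a) x * a := by
        rw [MulAut.conj_apply]
        group
      show x⁻¹ * a * x ∈ A
      rw [h3]
      exact A.mul_mem hσx ha
    rcases h.two x hx L hLΓ hst with h3 | h3
    · right
      refine le_antisymm h2 fun g hg => ?_
      obtain ⟨s, rfl⟩ := Cfsg.Agent.H931.exists_spToGL hg
      have h4 : MulAut.conj (e s : Q) ∈ L := by
        rw [h3]
        exact (h.conj _).2 (e s).2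
      have h5 := (hL _ (e s).2).1 h4
      have h6 : e.symm ⟨(e s : Q), (e s).2⟩ = s := e.symm_apply_apply s
      rwa [h6] at h5
    · left
      refine le_antisymm (fun g hg => ?_) h1
      obtain ⟨s, rfl⟩ := Cfsg.Agent.H931.exists_spToGL (h2 hg)
      rw [hmem]
      have h4 : MulAut.conj (e s : Q) ∈ L := by
        rw [hL _ (e s).2]
        have h6 : e.symm ⟨(e s : Q), (e s).2⟩ = s := e.symm_apply_apply s
        rw [h6]
        exact hg
      have h5 := h3 _ h4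
      rw [MulAut.conj_apply] at h5
      have h7 : x⁻¹ * (e s : Q) * x = x⁻¹ * ((e s : Q) * x * (e s : Q)⁻¹) * (e s : Q) := by group
      rw [h7]
      exact A.mul_mem h5 (e s).2

/-- **`Ω₇(q)` has no extremely primitive action with stabiliser `Sp₆(2)`** -/
theorem no_sp6 (h56 : Res56) {Q : Type*} [Group Q] {A : Subgroup Q} {Γ : Subgroup (MulAut Q)} (h : EPT A Γ)
    {F : Type*} [Field F] (h2 : (2 : F) ≠ 0) {ι : Type} [Fintype ι] [DecidableEq ι] (hι : Fintype.card ι = 7)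
    {Qf : (ι → F) → F} (hQ : IsNondegenerateQuadraticForm Qf) (m : Model Q (omegaGL Qf))
    (hA : HasSoc A (PSp 3 (ZMod 2))) : False := by
  obtain ⟨e⟩ := exists_equiv hA
  have hc : ∀ a ∈ A, (∀ b ∈ A, a * b = b * a) → a = 1 := by
    obtain ⟨N, hNA, hn, hc, -⟩ := hA
    exact fun a ha hab => hc a ha fun n hn' => hab n (hNA hn')
  have hinj : Function.Injective m.π := by
    rw [injective_iff_map_eq_one]
    intro s hs
    exact Subtype.ext (scal_omega hQ hι s.2 ((m.ker s).1 hs))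
  let E : omegaGL Qf ≃* Q := MulEquiv.ofBijective m.π ⟨hinj, m.surj⟩
  let ρ : S →* GL ι F := (omegaGL Qf).subtype.comp ((E.symm.toMonoidHom.comp A.subtype).comp e.toMonoidHom)
  have hρ : Function.Injective ρ := by
    intro s t hst
    exact e.injective (Subtype.ext (E.symm.injective (Subtype.ext hst)))
  have hρm : ∀ s, ρ s ∈ omegaGL Qf := fun s => (E.symm (e s)).2
  obtain ⟨x, hxO, hxA, hxD, hxg⟩ := exists_x h2 hρ hι hQ fun s => iso_of_omega (hρm s)
  set x' : Q := E ⟨x, hxO⟩ with hx'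
  have hxx : E.symm x' = ⟨x, hxO⟩ := E.symm_apply_apply _
  have hrange : ∀ a (ha : a ∈ A), ((E.symm a : omegaGL Qf) : GL ι F) ∈ ρ.range := by
    intro a ha
    refine ⟨e.symm ⟨a, ha⟩, ?_⟩
    show ((E.symm (e (e.symm ⟨a, ha⟩) : Q) : omegaGL Qf) : GL ι F) = _
    rw [e.apply_symm_apply]
  have hx'A : x' ∉ A := by
    intro hx'A
    apply hxA
    have h1 := hrange x' hx'A
    rwa [hxx] at h1
  have hmem : ∀ s : S, x'⁻¹ * (e s : Q) * x' ∈ A ↔ x⁻¹ * ρ s * x ∈ ρ.range := by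
    intro s
    have h1 : ((E.symm (x'⁻¹ * (e s : Q) * x') : omegaGL Qf) : GL ι F) = x⁻¹ * ρ s * x := by
      rw [map_mul, map_mul, map_inv, hxx]
      rfl
    constructor
    · intro h3
      rw [← h1]
      exact hrange _ h3
    · rintro ⟨t, ht⟩
      have h3 : E.symm (x'⁻¹ * (e s : Q) * x') = E.symm (e t) := Subtype.ext (h1.trans ht.symm)
      rw [E.symm.injective h3]
      exact (e t).2
  have hmax := isMax h hc e hx'A
  obtain ⟨k, hk⟩ := exists_ga h56 hmax (fun i => mem_pre.2 ((hmem _).2 (hxD i)))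
  exact hxg k ((hmem _).1 (mem_pre.1 hk))

/-- **the row `Ω₇(q)`, `q` odd, in the form of helper12's `row_s5815`** -/
theorem row_sp6 (h56 : Res56) {Q : Type*} [Group Q] {A : Subgroup Q} {Γ : Subgroup (MulAut Q)} (h : EPT A Γ)
    {F : Type*} [Field F] [Fintype F] (ho : Odd (Fintype.card F)) (m : Model Q (omegaGL (quadFormOdd 3 F)))
    (hA : HasSoc A (PSp 3 (ZMod 2))) : False :=
  no_sp6 h56 h (Cfsg.Agent.H775.EP.two_ne_zero_of_odd ho)
    (by rw [Cfsg.Agent.H775.EP.card_odd]) (Cfsg.Agent.H775.EP.nd_odd 3 F (Cfsg.Agent.H775.EP.two_ne_zero_of_odd ho)) m hA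

end Cfsg.Agent.H84.EP
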