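import Cfsg.Agent.H84.EP.Comm

/-!
# S3499, the projective orthogonal groups in dimension 8 with stabiliser `Sp₆(2)` (helper84)
-/

set_option autoImplicit false

namespace Cfsg.Agent.H84.EP

open Cfsg Cfsg.Geo Matrix Subgroup Cfsg.Agent.SporRec.TwoSp6.Sp Cfsg.Agent.H284 Cfsg.Agent.H419.EP
open scoped MatrixGroups commutatorElement

/-- **dimension 8, odd characteristic**: no extremely primitive action with stabiliser `Sp₆(2)` -/
theorem no_sp6_eight (h56 : Res56) {Q : Type*} [Group Q] {A : Subgroup Q} {Γ : Subgroup (MulAut Q)} (h : EPT A Γ)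
    {F : Type*} [Field F] (h2 : (2 : F) ≠ 0) {ι : Type} [Fintype ι] [DecidableEq ι] (hι : Fintype.card ι = 8)
    {Qf : (ι → F) → F} (hQ : IsNondegenerateQuadraticForm Qf) (m : Model Q (omegaGL Qf))
    (hA : HasSoc A (PSp 3 (ZMod 2))) : False := by
  obtain ⟨e⟩ := exists_equiv hA
  have hι0 : 0 < Fintype.card ι := by omega
  obtain ⟨y, t, hyL, hy7, ht, hy, hP⟩ := exists_norm (m := m) (e := e) hQ hι0
  have key : ∃ z : Q, ∀ i, z * (e (tr (pt i)) : Q) * z⁻¹ = e (tr (pt (cyc i))) := by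
    have h3 := (ht 0).mul (ht 1)
    have h4 := (ht 1).mul (ht 0)
    rw [tr_comm (om_pt 1 0)] at h4
    rcases h3.pm hQ hι0 h4 with h5 | h5
    · have hc : ∀ i j, Commute (t i) (t j) := by
        intro i j
        by_cases hij : i = j
        · rw [hij]
        · have := comm_const hQ hι0 ht (Or.inl rfl) (by rw [one_mul]; exact h5) hij
          rwa [one_mul] at this
      exact case_comm h2 hι hQ ht hc hy7 (iso_of_omega hyL.1) hy hP
    · have hanti : ∀ i j, i ≠ j → t i * t j = -(t j * t i) := by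
        intro i j hij
        have := comm_const hQ hι0 ht (Or.inr rfl) (by rw [neg_one_mul]; exact h5) hij
        rwa [neg_one_mul] at this
      exact case_anti h2 hQ hι0 ht hanti
  obtain ⟨z, hz⟩ := key
  exact kill h56 h (cent_of_hasSoc hA) e hz

/-- **`PΩ₈⁺(q)`, `q` odd** -/
theorem row_sp8_plus (h56 : Res56) {Q : Type*} [Group Q] {A : Subgroup Q} {Γ : Subgroup (MulAut Q)} (h : EPT A Γ)
    {F : Type*} [Field F] [Fintype F] (ho : Odd (Fintype.card F)) (m : Model Q (omegaGL (quadFormPlus 4 F)))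
    (hA : HasSoc A (PSp 3 (ZMod 2))) : False :=
  no_sp6_eight h56 h (Cfsg.Agent.H775.EP.two_ne_zero_of_odd ho)
    (by rw [Cfsg.Agent.H775.EP.card_plus]) (Cfsg.Agent.H775.EP.nd_plus 4 F) m hA

/-- **`PΩ₈⁻(q)`, `q` odd** -/
theorem row_sp8_minus (h56 : Res56) {Q : Type*} [Group Q] {A : Subgroup Q} {Γ : Subgroup (MulAut Q)} (h : EPT A Γ)
    {F : Type*} [Field F] [Fintype F] (ho : Odd (Fintype.card F)) {a b : F}
    (hab : ∀ z₁ z₂ : F, z₁ ^ 2 + a * z₁ * z₂ + b * z₂ ^ 2 = 0 → z₁ = 0 ∧ z₂ = 0)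
    (m : Model Q (omegaGL (quadFormMinus 3 F a b))) (hA : HasSoc A (PSp 3 (ZMod 2))) : False :=
  no_sp6_eight h56 h (Cfsg.Agent.H775.EP.two_ne_zero_of_odd ho)
    (by rw [Cfsg.Agent.H775.EP.card_minus]) (Cfsg.Agent.H775.EP.nd_minus 3 F a b hab) m hA

end Cfsg.Agent.H84.EP
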